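import Mathlib
import Cfsg.Agent.Lib.Char.Chief

/-! Small fixed point spaces (Isaacs, Keller, Meierfrankenfeld, Moreto) for solvable groups. -/

set_option autoImplicit false
set_option linter.unusedSectionVars false
set_option linter.style.haveILetI false

namespace H85

open Cfsg Subgroup
open scoped commutatorElement

universe u v w

/-- Fixed points of an endomorphism. -/
def fixE {V : Type*} [Group V] (f : V →* V) : Subgroup V := f.eqLocus (MonoidHom.id V)

theorem mem_fixE {V : Type*} [Group V] {f : V →* V} {v : V} : v ∈ fixE f ↔ f v = v := Iff.rfl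

theorem card_mul_le_of_disjoint {V : Type*} [Group V] [Finite V] {A B : Subgroup V}
    (h : Disjoint A B) : Nat.card A * Nat.card B ≤ Nat.card V := by
  rw [← Nat.card_prod]
  exact Nat.card_le_card_of_injective _ (mul_injective_of_disjoint h)

theorem card_fixE_le {V : Type*} [CommGroup V] [Finite V] (W : Subgroup V) (f : V →* V)
    (f1 : W →* W) (h1 : ∀ w, (f1 w : V) = f w) (f2 : V ⧸ W →* V ⧸ W)
    (h2 : ∀ v : V, f2 v = f v) : Nat.card (fixE f) ≤ Nat.card (fixE f1) * Nat.card (fixE f2) := by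
  let φ : fixE f →* V ⧸ W := (QuotientGroup.mk' W).comp (fixE f).subtype
  rw [← φ.ker.card_mul_index, index_ker]
  refine Nat.mul_le_mul ?_ (card_le_of_le ?_)
  · refine Nat.card_le_card_of_injective (fun x => ⟨⟨x.1.1, (QuotientGroup.eq_one_iff _).1 x.2⟩,
      Subtype.ext ((h1 _).trans x.1.2)⟩) fun x y h => ?_
    exact Subtype.ext (Subtype.ext (congrArg (fun z => z.1.1) h))
  · rintro _ ⟨x, rfl⟩
    exact (h2 x).trans (congrArg _ x.2)

section Coset

variable {N : Type v} [Group N] [Fintype N]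

/-- The subgroup fixed by `M`. -/
def cenM {V : Type*} [Group V] (ρ : N → V →* V) (M : Subgroup N) : Subgroup V :=
  ⨅ a ∈ M, fixE (ρ a)

theorem mem_cenM {V : Type*} [Group V] {ρ : N → V →* V} {M : Subgroup N} {v : V} :
    v ∈ cenM ρ M ↔ ∀ a ∈ M, ρ a v = v := by
  simp [cenM, mem_iInf, mem_fixE]

theorem fps_irr {V : Type*} [CommGroup V] [Finite V] (hN : ∀ a b : N, a * b = b * a)
    (ρ : N → V →* V) (h1 : ∀ v, ρ 1 v = v) (hm : ∀ a b v, ρ (a * b) v = ρ a (ρ b v))
    (γ : V →* V) (hγ : Function.Injective γ) (σ : N ≃* N)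
    (hσ : ∀ a v, γ (ρ a v) = ρ (σ a) (γ v)) (hc : Nat.Coprime (Nat.card N) (Nat.card V))
    (h0 : ∀ v, (∀ a, ρ a v = v) → v = 1)
    (hirr : ∀ W : Subgroup V, (∀ a, ∀ w ∈ W, ρ a w ∈ W) → (∀ w ∈ W, γ w ∈ W) → W = ⊥ ∨ W = ⊤) :
    ∏ a : N, Nat.card (fixE ((ρ a).comp γ)) ^ 2 ≤ Nat.card V ^ Nat.card N := by
  classical
  rcases subsingleton_or_nontrivial V with hV | hV
  · rw [Finset.prod_eq_one fun a _ => by rw [Nat.card_of_subsingleton 1, one_pow]]
    exact Nat.one_le_pow _ _ Nat.card_pos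
  have hstab : ∀ v : V, ∃ T : Subgroup N, ∀ a, a ∈ T ↔ ρ a v = v := fun v =>
    ⟨{ carrier := {a | ρ a v = v}
       one_mem' := h1 v
       mul_mem' := fun {a b} ha hb => by
         rw [Set.mem_setOf_eq] at ha hb ⊢
         rw [hm, hb, ha]
       inv_mem' := fun {a} ha => by
         rw [Set.mem_setOf_eq] at ha ⊢
         rw [← ha, ← hm, inv_mul_cancel, h1, ha] }, fun _ => Iff.rfl⟩
  obtain ⟨M, hM, hmax⟩ := Set.exists_max_image {M : Subgroup N | cenM ρ M ≠ ⊥}
    (fun M => Nat.card M) (Set.toFinite _) ⟨⊥, by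
      obtain ⟨v, hv⟩ := exists_ne (1 : V)
      exact fun h => hv (mem_bot.1 (h ▸ mem_cenM.2 fun a ha => by rw [mem_bot.1 ha, h1]))⟩
  -- a vector fixed by a maximal subgroup and by an element outside is trivial
  have key : ∀ M' : Subgroup N, Nat.card M' = Nat.card M → ∀ v ∈ cenM ρ M', ∀ a ∉ M',
      ρ a v = v → v = 1 := by
    intro M' hM' v hv a ha hav
    obtain ⟨T, hT⟩ := hstab v
    by_contra hne
    have e1 : M' ≤ T := fun b hb => (hT b).2 (mem_cenM.1 hv b hb)
    have e2 := hmax T fun h => hne (mem_bot.1 (h ▸ mem_cenM.2 fun b hb => (hT b).1 hb))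
    rw [eq_of_le_of_card_ge e1 (hM' ▸ e2)] at ha
    exact ha ((hT a).2 hav)
  have inv1 : ∀ (M' : Subgroup N) a, ∀ w ∈ cenM ρ M', ρ a w ∈ cenM ρ M' := fun M' a w hw =>
    mem_cenM.2 fun b hb => by rw [← hm, hN, hm, mem_cenM.1 hw b hb]
  have inv2 : ∀ M' : Subgroup N, ∀ w ∈ cenM ρ M', γ w ∈ cenM ρ (M'.map σ) := fun M' w hw =>
    mem_cenM.2 (by
      rintro _ ⟨b, hb, rfl⟩
      exact (hσ b w).symm.trans (congrArg γ (mem_cenM.1 hw b hb)))
  have cσ : ∀ M' : Subgroup N, Nat.card (M'.map (σ : N →* N)) = Nat.card M' := fun M' =>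
    card_map_of_injective σ.injective
  by_cases hfix : M.map (σ : N →* N) = M
  · have e := (hirr _ (inv1 M) fun w hw => hfix ▸ inv2 M w hw).resolve_left hM
    obtain ⟨n, hn⟩ : ∃ n, n ∉ M := by
      by_contra! h
      refine hM (eq_bot_iff.2 fun v hv => h0 v fun a => mem_cenM.1 hv a (h a))
    rw [Finset.prod_pow, sq]
    nth_rewrite 2 [← Equiv.prod_comp (Equiv.mulLeft n)]
    rw [← Finset.prod_mul_distrib, Nat.card_eq_fintype_card (α := N), ← Finset.card_univ]
    refine Finset.prod_le_pow_card _ _ _ fun a _ => card_mul_le_of_disjoint ?_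
    rw [disjoint_def]
    intro v h2 h3
    refine key M rfl v (e ▸ mem_top v) n hn ?_
    have h4 : ρ a (γ v) = v := h2
    have h5 : ρ (n * a) (γ v) = v := h3
    rwa [hm, h4] at h5
  · let E : Subgroup N → V →* V := fun M' => ∏ a ∈ Finset.univ.filter (· ∈ M'), ρ a
    have hE : ∀ M' v, E M' v = ∏ a ∈ Finset.univ.filter (· ∈ M'), ρ a v := fun M' v => by
      simp only [E, MonoidHom.finsetProd_apply]
    have E1 : ∀ M' v, E M' v ∈ cenM ρ M' := fun M' v => mem_cenM.2 fun b hb => by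
      rw [hE, map_prod]
      refine Finset.prod_equiv (Equiv.mulLeft b) (fun a => ?_) fun a _ => (hm _ _ _).symm
      simp [Subgroup.mul_mem_cancel_left _ hb]
    have E2 : ∀ M', ∀ w ∈ cenM ρ M', E M' w = w ^ Nat.card M' := fun M' w hw => by
      rw [hE, Finset.prod_congr rfl fun a ha => mem_cenM.1 hw a (by simpa using ha),
        Finset.prod_const, Nat.card_eq_fintype_card, Fintype.card_subtype]
    have E3 : ∀ M' M'' : Subgroup N, Nat.card M' = Nat.card M → Nat.card M'' = Nat.card M →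
        M' ≠ M'' → ∀ w ∈ cenM ρ M'', E M' w = 1 := fun M' M'' e1 e2 hne w hw => by
      obtain ⟨a, ha, ha'⟩ : ∃ a ∈ M'', a ∉ M' := by
        by_contra! h
        exact hne (eq_of_le_of_card_ge h (by rw [e1, e2])).symm
      refine key M' e1 _ (E1 M' w) a ha' (mem_cenM.1 ?_ a ha)
      rw [hE]
      exact Subgroup.prod_mem _ fun b _ => inv1 _ b w hw
    have E4 : ∀ M' a v, ρ a (γ (E M' v)) = E (M'.map σ) (ρ a (γ v)) := fun M' a v => by
      rw [hE, hE, map_prod, map_prod]
      refine Finset.prod_equiv σ.toEquiv (fun b => ?_) fun b _ => ?_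
      · simp
      · rw [hσ, ← hm, hN, hm]
        rfl
    rw [Nat.card_eq_fintype_card (α := N), ← Finset.card_univ]
    refine Finset.prod_le_pow_card _ _ _ fun a _ => ?_
    have b1 : Nat.card (fixE ((ρ a).comp γ)) ≤ Nat.card (cenM ρ M) := by
      refine Nat.card_le_card_of_injective
        (((E M).comp (Subgroup.subtype _)).codRestrict _ fun v => E1 M v)
        ((injective_iff_map_eq_one _).2 ?_)
      rintro ⟨v, hv⟩ h
      have hv' : ρ a (γ v) = v := hv
      have h' : E M v = 1 := congrArg Subtype.val h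
      obtain ⟨O, hO⟩ : ∃ O : Finset (Subgroup N),
          ∀ {M'}, M' ∈ O ↔ Nat.card M' = Nat.card M ∧ E M' v = 1 :=
        ⟨Finset.univ.filter fun M' : Subgroup N => Nat.card M' = Nat.card M ∧ E M' v = 1, by simp⟩
      have hU := (hirr (⨆ M' : O, cenM ρ M') (fun b => ?_) ?_).resolve_left fun h =>
        hM (le_bot_iff.1 (h ▸ le_iSup (fun M' : O => cenM ρ M') ⟨M, hO.2 ⟨rfl, h'⟩⟩))
      · have e : (⨆ M' : O, cenM ρ M') ≤ (∏ M' ∈ O, E M').eqLocus (powMonoidHom (Nat.card M)) :=
          iSup_le fun M' w hw => by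
            show (∏ M' ∈ O, E M') w = w ^ Nat.card M
            rw [MonoidHom.finsetProd_apply, Finset.prod_eq_single_of_mem M'.1 M'.2
              fun M'' h1 h2 => E3 _ _ (hO.1 h1).1 (hO.1 M'.2).1 h2 w hw, E2 _ w hw, (hO.1 M'.2).1]
        have e' : (∏ M' ∈ O, E M') v = v ^ Nat.card M := e (hU ▸ mem_top v)
        rw [MonoidHom.finsetProd_apply, Finset.prod_eq_one fun M' h => (hO.1 h).2] at e'
        refine Subtype.ext (orderOf_eq_one_iff.1 (Nat.eq_one_of_dvd_coprimes hc
          ((orderOf_dvd_of_pow_eq_one e'.symm).trans (card_subgroup_dvd_card M))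
          (orderOf_dvd_natCard v)))
      · exact (iSup_le fun M' w hw => (le_iSup (fun M' : O => cenM ρ M') M') (inv1 _ b w hw) :
          _ ≤ (⨆ M' : O, cenM ρ M').comap (ρ b))
      · show (⨆ M' : O, cenM ρ M') ≤ (⨆ M' : O, cenM ρ M').comap γ
        refine iSup_le fun M' w hw => ?_
        have e : M'.1.map (σ : N →* N) ∈ O := hO.2 ⟨(cσ _).trans (hO.1 M'.2).1, by
          rw [← hv', ← E4, (hO.1 M'.2).2, map_one, map_one]⟩
        exact (le_iSup (fun M' : O => cenM ρ M') ⟨_, e⟩) (inv2 _ w hw)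
    have b2 : Nat.card (cenM ρ M) ≤ Nat.card (cenM ρ (M.map σ)) :=
      Nat.card_le_card_of_injective (fun w => ⟨γ w, inv2 M w w.2⟩) fun x y h =>
        Subtype.ext (hγ (congrArg Subtype.val h))
    refine le_trans ?_ (card_mul_le_of_disjoint (A := cenM ρ M) (B := cenM ρ (M.map σ)) ?_)
    · rw [sq]
      exact Nat.mul_le_mul b1 (b1.trans b2)
    · rw [disjoint_def]
      intro v h2 h3
      obtain ⟨b, hb, hb'⟩ : ∃ b ∈ M.map (σ : N →* N), b ∉ M := by
        by_contra! h
        exact hfix (eq_of_le_of_card_ge h (cσ M).ge)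
      exact key M rfl v h2 b hb' (mem_cenM.1 h3 b hb)

theorem fps_aux (hN : ∀ a b : N, a * b = b * a) (σ : N ≃* N) (n : ℕ) :
    ∀ (V : Type u) [CommGroup V] [Finite V], Nat.card V = n →
    ∀ (ρ : N → V →* V), (∀ v, ρ 1 v = v) → (∀ a b v, ρ (a * b) v = ρ a (ρ b v)) →
    ∀ (γ : V →* V), Function.Injective γ → (∀ a v, γ (ρ a v) = ρ (σ a) (γ v)) →
    Nat.Coprime (Nat.card N) (Nat.card V) → (∀ v, (∀ a, ρ a v = v) → v = 1) →
    ∏ a : N, Nat.card (fixE ((ρ a).comp γ)) ^ 2 ≤ Nat.card V ^ Nat.card N := by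
  induction n using Nat.strong_induction_on with
  | _ n ih =>
  intro V _ _ hn ρ h1 hm γ hγ hσ hc h0
  by_cases hirr : ∀ W : Subgroup V, (∀ a, ∀ w ∈ W, ρ a w ∈ W) → (∀ w ∈ W, γ w ∈ W) →
    W = ⊥ ∨ W = ⊤
  · exact fps_irr hN ρ h1 hm γ hγ σ hσ hc h0 hirr
  push Not at hirr
  obtain ⟨W, w1, w2, w3, w4⟩ := hirr
  have e := W.card_mul_index
  have i1 := ih (Nat.card W) (by
      rw [← hn, ← e]
      exact lt_mul_of_one_lt_right Nat.card_pos (one_lt_index_of_ne_top w4)) W rfl
    (fun a => ((ρ a).comp W.subtype).codRestrict W fun w => w1 a w w.2)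
    (fun v => Subtype.ext (h1 v)) (fun a b v => Subtype.ext (hm a b v))
    ((γ.comp W.subtype).codRestrict W fun w => w2 w w.2)
    (fun x y h => Subtype.ext (hγ (congrArg Subtype.val h))) (fun a v => Subtype.ext (hσ a v))
    (hc.coprime_dvd_right (card_subgroup_dvd_card W))
    (fun v hv => Subtype.ext (h0 v fun a => congrArg Subtype.val (hv a)))
  have i2 := ih (Nat.card (V ⧸ W)) (by
      rw [← hn, ← e]
      exact lt_mul_of_one_lt_left Nat.card_pos ((one_lt_card_iff_ne_bot W).2 w3)) (V ⧸ W) rfl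
    (fun a => QuotientGroup.map W W (ρ a) (w1 a))
    (fun v => by
      obtain ⟨v, rfl⟩ := QuotientGroup.mk_surjective v
      exact congrArg QuotientGroup.mk (h1 v))
    (fun a b v => by
      obtain ⟨v, rfl⟩ := QuotientGroup.mk_surjective v
      exact congrArg QuotientGroup.mk (hm a b v))
    (QuotientGroup.map W W γ w2)
    (Finite.injective_iff_surjective.2 fun v => by
      obtain ⟨v, rfl⟩ := QuotientGroup.mk_surjective v
      obtain ⟨v, rfl⟩ := Finite.injective_iff_surjective.1 hγ v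
      exact ⟨v, rfl⟩)
    (fun a v => by
      obtain ⟨v, rfl⟩ := QuotientGroup.mk_surjective v
      exact congrArg QuotientGroup.mk (hσ a v))
    (hc.coprime_dvd_right (card_quotient_dvd_card W))
    (fun v hv => by
      obtain ⟨v, rfl⟩ := QuotientGroup.mk_surjective v
      have e1 : ∏ a, ρ a v = 1 := h0 _ fun b => by
        rw [map_prod]
        exact Fintype.prod_equiv (Equiv.mulLeft b) _ _ fun a => (hm _ _ _).symm
      have e2 := congrArg (QuotientGroup.mk' W) e1
      rw [map_prod, Finset.prod_congr rfl fun a _ => (show QuotientGroup.mk' W (ρ a v) = v from hv a),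
        Finset.prod_const, map_one, Finset.card_univ, ← Nat.card_eq_fintype_card] at e2
      exact orderOf_eq_one_iff.1 (Nat.eq_one_of_dvd_coprimes hc (orderOf_dvd_of_pow_eq_one e2)
        ((_root_.orderOf_dvd_natCard _).trans (card_quotient_dvd_card W))))
  rw [← e, mul_pow]
  refine le_trans ?_ (Nat.mul_le_mul i1 i2)
  rw [← Finset.prod_mul_distrib]
  refine Finset.prod_le_prod' fun a _ => ?_
  rw [← mul_pow]
  exact Nat.pow_le_pow_left (card_fixE_le W _ _ (fun _ => rfl) _ fun _ => rfl) 2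

end Coset

/-- Average fixed point bound for an irreducible nontrivial action of a solvable group. -/
theorem fps_solv {G V : Type*} [Group G] [Fintype G] [Group.IsSolvable G] [Group V] [Finite V]
    (hV : ∀ a b : V, a * b = b * a) {p : ℕ} [hp : Fact p.Prime] (hpV : ∀ v : V, v ^ p = 1)
    (hne : Nat.card V ≠ p) (φ : G →* MulAut V)
    (hirr : ∀ W : Subgroup V, (∀ x, ∀ w ∈ W, φ x w ∈ W) → W = ⊥ ∨ W = ⊤) :
    ∏ x : G, Nat.card (fixE (φ x).toMonoidHom) ^ 2 ≤ Nat.card V ^ Nat.card G := by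
  classical
  rcases subsingleton_or_nontrivial V with hV1 | hV1
  · rw [Finset.prod_eq_one fun a _ => by rw [Nat.card_of_subsingleton 1, one_pow]]
    exact Nat.one_le_pow _ _ Nat.card_pos
  have hnt : (⊥ : Subgroup φ.range) < ⊤ := by
    refine bot_lt_iff_ne_bot.2 fun h => hne ?_
    obtain ⟨v, hv⟩ := exists_ne (1 : V)
    have := (hirr (zpowers v) fun x w hw => by
      have : (⟨φ x, x, rfl⟩ : φ.range) = 1 := mem_bot.1 (h ▸ mem_top _)
      rwa [show φ x = 1 from congrArg Subtype.val this]).resolve_left (by simpa using hv)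
    rw [← card_top, ← this, Nat.card_zpowers, orderOf_eq_prime (hpV v) hv]
  haveI : Group.IsSolvable φ.range := Group.isSolvable_of_surjective φ.rangeRestrict_surjective
  obtain ⟨N, hN, -⟩ := H31.exists_chief_above hnt
  haveI := hN.normalK
  have hab := hN.commutator_le (H31.solvOver_of_isSolvable _)
  obtain ⟨q, hq, hNq⟩ := hN.exists_prime hab
  haveI : Fact q.Prime := ⟨hq⟩
  have h0 : ∀ v : V, (∀ a : N, (a : φ.range).1 v = v) → v = 1 := by
    have := hirr (⨅ a : N, fixE (a : φ.range).1.toMonoidHom) fun x w hw => by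
      rw [mem_iInf] at hw ⊢
      intro a
      have := hw ⟨_, hN.normalK.conj_mem _ a.2 (φ.rangeRestrict x)⁻¹⟩
      rw [mem_fixE] at this ⊢
      simpa using congrArg (φ x) this
    rcases this with h | h
    · exact fun v hv => mem_bot.1 (h ▸ mem_iInf.2 hv)
    · refine absurd (eq_bot_iff.2 fun a ha => ?_) hN.lt.ne'
      exact Subtype.ext (MulEquiv.ext fun v => mem_iInf.1 (h ▸ mem_top v) ⟨a, ha⟩)
  have hNp : IsPGroup q N := fun a => ⟨1, Subtype.ext (by simpa using hNq a a.2)⟩
  have hVp : IsPGroup p V := fun v => ⟨1, by simpa using hpV v⟩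
  have hc : Nat.Coprime (Nat.card N) (Nat.card V) := by
    obtain ⟨i, hi⟩ := IsPGroup.iff_card.1 hNp
    obtain ⟨j, hj⟩ := IsPGroup.iff_card.1 hVp
    rw [hi, hj]
    refine Nat.Coprime.pow _ _ ((Nat.coprime_primes hq hp.out).2 fun h => ?_)
    subst h
    letI : MulAction N V := MulAction.compHom V (φ.range.subtype.comp N.subtype)
    obtain ⟨v, h1, h2⟩ := hNp.exists_fixed_point_of_prime_dvd_card_of_fixed_point V
      (hVp.card_eq_or_dvd.resolve_left (Finite.one_lt_card (α := V)).ne') (a := 1)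
      (fun a => map_one (a : φ.range).1)
    exact h2 (h0 v h1).symm
  letI : CommGroup V := { ‹Group V› with mul_comm := hV }
  letI := Fintype.ofFinite N
  have key : ∀ x : G, ∏ a : N, Nat.card (fixE ((a : φ.range).1 * φ x).toMonoidHom) ^ 2 ≤
      Nat.card V ^ Nat.card N := fun x =>
    fps_aux (fun a b => Subtype.ext (commutatorElement_eq_one_iff_mul_comm.1
      (mem_bot.1 (hab (commutator_mem_commutator a.2 b.2)))))
      (MulAut.conjNormal (φ.rangeRestrict x)) _ V rfl (fun a => (a : φ.range).1.toMonoidHom)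
      (fun _ => rfl) (fun _ _ _ => rfl) (φ x).toMonoidHom (φ x).injective
      (fun a v => by simp) hc h0
  have := Finset.prod_le_pow_card Finset.univ _ _ fun x _ => key x
  rw [Finset.prod_comm, Finset.prod_congr rfl (g := fun _ =>
    ∏ x : G, Nat.card (fixE (φ x).toMonoidHom) ^ 2) fun a _ => by
      obtain ⟨y, hy⟩ := (a : φ.range).2
      refine Fintype.prod_equiv (Equiv.mulLeft y) _ _ fun x => ?_
      rw [← hy, ← map_mul]
      rfl, Finset.prod_const, Finset.card_univ, Finset.card_univ, ← Nat.card_eq_fintype_card,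
    ← Nat.card_eq_fintype_card, ← pow_mul, mul_comm, pow_mul] at this
  exact (Nat.pow_le_pow_iff_left Nat.card_pos.ne').1 this

end H85
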