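import Mathlib
import Cfsg.Agent.Lib.Ord.Count

set_option autoImplicit false
set_option linter.unusedSectionVars false
set_option linter.style.haveILetI false

/-! Groups with the character degrees of `L₂(p²)`: values of the character of degree `p²`. -/

open Cfsg H17.Ord

namespace H85.L2D

variable {G : Type*} [Group G] [Finite G]

theorem cong {St : IrrCharacter G} (hne : St ≠ triv G) {g : G} (hg : g ≠ 1) {z : ℤ}
    (hz : (St : G → ℂ) g = z) {k : ℕ} (hk : k ≠ 0)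
    (h : ∀ ψ : IrrCharacter G, ψ ≠ triv G → ψ ≠ St → k ∣ dg ψ ∨ (ψ : G → ℂ) g = 0) :
    (k : ℤ) ∣ 1 + dg St * z := by
  classical
  have h0 := H6.sum_irr_one_mul hg
  set S : Finset (IrrCharacter G) := (Finset.univ.erase (triv G)).erase St with hS
  have hs : ∀ ψ ∈ S, ∃ a : ℂ, IsIntegral ℤ a ∧ (ψ : G → ℂ) 1 * (ψ : G → ℂ) g = k * a := by
    intro ψ hψ
    simp only [hS, Finset.mem_erase] at hψ
    rcases h ψ hψ.2.1 hψ.1 with ⟨c, hc⟩ | h1
    · refine ⟨c * (ψ : G → ℂ) g, ?_, ?_⟩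
      · exact (isIntegral_natCast c).mul (H6.char_isIntegral (irr_chr ψ) g)
      · rw [dg_cast, hc]; push_cast; ring
    · exact ⟨0, isIntegral_zero, by rw [h1]; ring⟩
  choose! a ha using hs
  rw [← Finset.add_sum_erase _ _ (Finset.mem_univ (triv G)),
    ← Finset.add_sum_erase _ _ (Finset.mem_erase.2 ⟨hne, Finset.mem_univ St⟩), ← hS,
    Finset.sum_congr rfl fun ψ hψ => (ha ψ hψ).2, ← Finset.mul_sum, triv_apply, triv_apply,
    dg_cast, hz] at h0
  have hint : IsIntegral ℤ (∑ ψ ∈ S, a ψ) := IsIntegral.sum _ fun ψ hψ => (ha ψ hψ).1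
  have hk' : (k : ℂ) ≠ 0 := Nat.cast_ne_zero.2 hk
  have he : ∑ ψ ∈ S, a ψ = ((-(1 + dg St * z) / k : ℚ) : ℂ) := by
    push_cast
    field_simp
    linear_combination h0
  rw [he] at hint
  obtain ⟨n, hn⟩ := H8.exists_int_of_isIntegral_rat hint
  have hkq : (k : ℚ) ≠ 0 := Nat.cast_ne_zero.2 hk
  rw [div_eq_iff hkq] at hn
  refine ⟨-n, ?_⟩
  have : ((1 + dg St * z : ℤ) : ℚ) = ((k * -n : ℤ) : ℚ) := by
    push_cast
    linear_combination -hn
  exact_mod_cast this

theorem mix {g : G} {r s : ℕ} (hr : r.Prime) (hs : s.Prime) (h1 : r ∣ orderOf g)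
    (h2 : s ∣ Nat.card (Subgroup.centralizer ({g} : Set G))) :
    ∃ x : G, r ∣ orderOf x ∧ s ∣ orderOf x := by
  by_cases hrs : r = s
  · exact ⟨g, h1, hrs ▸ h1⟩
  haveI := Fact.mk hs
  obtain ⟨y, hy⟩ := exists_prime_orderOf_dvd_card' s h2
  have hyo : orderOf (y : G) = s := by rw [Subgroup.orderOf_coe, hy]
  have hc : Commute g (y : G) := by
    have := y.2
    rw [Subgroup.mem_centralizer_iff] at this
    exact this g rfl
  have hg0 : orderOf g ≠ 0 := (orderOf_pos g).ne'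
  have ho : orderOf (g ^ (orderOf g / r)) = r := orderOf_pow_orderOf_div hg0 h1
  refine ⟨g ^ (orderOf g / r) * y, ?_⟩
  rw [(hc.pow_left _).orderOf_mul_eq_mul_orderOf_of_coprime
    (by rw [ho, hyo]; exact (Nat.coprime_primes hr hs).2 hrs), ho, hyo]
  exact ⟨dvd_mul_right _ _, dvd_mul_left _ _⟩

theorem sq_le_cent (χ : IrrCharacter G) {g : G} {z : ℤ} (hz : (χ : G → ℂ) g = z) :
    z ^ 2 ≤ Nat.card (Subgroup.centralizer ({g} : Set G)) := by
  classical
  have h := H6.column_orthogonality_self g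
  simp only [Complex.mul_conj] at h
  have h2 : ∑ ψ : IrrCharacter G, Complex.normSq ((ψ : G → ℂ) g) =
      Nat.card (Subgroup.centralizer ({g} : Set G)) := by exact_mod_cast h
  have h3 : Complex.normSq ((χ : G → ℂ) g) ≤ ∑ ψ : IrrCharacter G, Complex.normSq ((ψ : G → ℂ) g) :=
    Finset.single_le_sum (f := fun ψ : IrrCharacter G => Complex.normSq ((ψ : G → ℂ) g))
      (fun ψ _ => Complex.normSq_nonneg _) (Finset.mem_univ χ)
  rw [h2, hz, Complex.normSq_intCast] at h3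
  have : ((z ^ 2 : ℤ) : ℝ) ≤ ((Nat.card (Subgroup.centralizer ({g} : Set G)) : ℤ) : ℝ) := by
    push_cast; nlinarith
  exact_mod_cast this

/-- The character data. -/
structure Dat (G : Type*) [Group G] [Finite G] (p m w : ℕ) where
  hp : p.Prime
  hp2 : p ≠ 2
  hm : p ^ 2 + 1 = 2 * m
  hw : w + 1 = p ^ 2
  card : Nat.card G = p ^ 2 * m * w
  St : IrrCharacter G
  dSt : dg St = p ^ 2
  uSt : ∀ ψ : IrrCharacter G, dg ψ = p ^ 2 → ψ = St
  u1 : ∀ ψ : IrrCharacter G, dg ψ = 1 → ψ = triv G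
  degs : ∀ ψ : IrrCharacter G, dg ψ = 1 ∨ dg ψ = p ^ 2 ∨ dg ψ = 2 * m ∨ dg ψ = m ∨ dg ψ = w

namespace Dat

variable {p m w : ℕ} (D : Dat G p m w)
include D

theorem arith : ∃ k, 1 ≤ k ∧ m = 4 * k + 1 ∧ w = 8 * k ∧ p ^ 2 = 8 * k + 1 := by
  obtain ⟨a, ha⟩ := D.hp.odd_of_ne_two D.hp2
  have h2 := D.hp.two_le
  have h1 := D.hm
  have h3 := D.hw
  obtain ⟨b, hb⟩ := Nat.even_mul_succ_self a
  have : p ^ 2 = 8 * b + 1 := by rw [ha]; nlinarith
  refine ⟨b, ?_, by omega, by omega, this⟩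
  by_contra h
  have : b = 0 := by omega
  nlinarith

theorem cop_pm : Nat.Coprime (p ^ 2) m := by
  have h := D.hm
  have : Nat.Coprime (p ^ 2) (2 * m) := by rw [← h]; simp
  exact this.coprime_mul_left_right

theorem cop_pw : Nat.Coprime (p ^ 2) w := by
  rw [← D.hw]; simp

theorem cop_mw : Nat.Coprime m w := by
  obtain ⟨k, -, h1, h2, -⟩ := D.arith
  rw [h1, h2]
  refine Nat.Coprime.symm (Nat.coprime_of_dvd fun r hr h3 h4 => ?_)
  rcases (Nat.Prime.dvd_mul hr).1 h3 with h5 | h5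
  · have : r = 2 := (Nat.prime_dvd_prime_iff_eq hr Nat.prime_two).1
      (hr.dvd_of_dvd_pow (n := 3) h5)
    subst this; omega
  · exact hr.one_lt.ne' (Nat.dvd_one.1 ((Nat.dvd_add_right (h5.mul_left 4)).1 h4))

theorem ne_triv : D.St ≠ triv G := fun h => by
  have := D.dSt
  rw [h, dg_triv] at this
  obtain ⟨k, h0, -, -, h1⟩ := D.arith
  omega

/-- the values of the character of degree `p²` -/
noncomputable def z (g : G) : ℤ :=
  (int_of_unique (χ := D.St) (fun ψ h => D.uSt ψ (h.trans D.dSt)) g).choose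

theorem hz (g : G) : (D.St : G → ℂ) g = D.z g :=
  (int_of_unique (χ := D.St) (fun ψ h => D.uSt ψ (h.trans D.dSt)) g).choose_spec

theorem z_one : D.z 1 = p ^ 2 := by
  have := D.hz 1
  rw [dg_cast, D.dSt] at this
  exact_mod_cast this.symm

theorem abs_le (g : G) : |D.z g| ≤ p ^ 2 := by
  have := H6.char_norm_le (irr_chr D.St) g
  rw [D.hz, D.hz, D.z_one, Complex.norm_intCast, Complex.norm_intCast] at this
  have h2 : ((|D.z g| : ℤ) : ℝ) ≤ ((p ^ 2 : ℤ) : ℝ) := by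
    push_cast at this ⊢
    rwa [abs_of_nonneg (by positivity : (0 : ℝ) ≤ (p : ℝ) ^ 2)] at this
  exact_mod_cast h2

theorem zp {g : G} (h : p ∣ orderOf g) : D.z g = 0 := by
  have := van_of_mul (χ := D.St) (c := m * w) D.hp (by rw [D.dSt, D.card]; ring)
    (fun h2 => by
      have := Nat.Coprime.coprime_dvd_left (dvd_pow_self p two_ne_zero) (D.cop_pm.mul_right D.cop_pw)
      exact D.hp.one_lt.ne' (Nat.Coprime.eq_one_of_dvd this h2)) h
  rw [D.hz] at this
  exact_mod_cast this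

theorem ne_one_of {g : G} {r : ℕ} (hr : r.Prime) (h : r ∣ orderOf g) : g ≠ 1 := by
  rintro rfl
  rw [orderOf_one] at h
  exact hr.one_lt.ne' (Nat.dvd_one.1 h)

theorem zm {g : G} {r : ℕ} (hr : r.Prime) (hm : r ∣ m) (h : r ∣ orderOf g) :
    (w : ℤ) ∣ 1 + p ^ 2 * D.z g := by
  obtain ⟨k, h0, h1, h2, h3⟩ := D.arith
  have hn : ¬ r ∣ p ^ 2 * w := fun h4 => by
    have := Nat.Coprime.coprime_dvd_left hm (D.cop_pm.symm.mul_right D.cop_mw)
    exact hr.one_lt.ne' (Nat.Coprime.eq_one_of_dvd this h4)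
  have := cong D.ne_triv (D.ne_one_of hr h) (D.hz g) (k := w) (by omega) fun ψ a b => by
    rcases D.degs ψ with e | e | e | e | e
    · exact absurd (D.u1 ψ e) a
    · exact absurd (D.uSt ψ e) b
    · refine Or.inr (van_of_mul (c := p ^ 2 * (4 * k)) hr (by rw [e, D.card, h2]; ring)
        (fun h5 => hn (h5.trans ⟨2, by rw [h2]; ring⟩)) h)
    · exact Or.inr (van_of_mul (c := p ^ 2 * w) hr (by rw [e, D.card]; ring) hn h)
    · exact Or.inl (e ▸ dvd_rfl)
  rwa [D.dSt, Nat.cast_pow] at this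

theorem zw {g : G} {r : ℕ} (hr : r.Prime) (hw : r ∣ w) (h : r ∣ orderOf g) :
    (m : ℤ) ∣ 1 + p ^ 2 * D.z g := by
  obtain ⟨k, h0, h1, h2, h3⟩ := D.arith
  have hn : ¬ r ∣ p ^ 2 * m := fun h4 => by
    have := Nat.Coprime.coprime_dvd_left hw (D.cop_pw.symm.mul_right D.cop_mw.symm)
    exact hr.one_lt.ne' (Nat.Coprime.eq_one_of_dvd this h4)
  have := cong D.ne_triv (D.ne_one_of hr h) (D.hz g) (k := m) (by omega) fun ψ a b => by
    rcases D.degs ψ with e | e | e | e | e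
    · exact absurd (D.u1 ψ e) a
    · exact absurd (D.uSt ψ e) b
    · exact Or.inl (e ▸ dvd_mul_left _ _)
    · exact Or.inl (e ▸ dvd_rfl)
    · exact Or.inr (van_of_mul (c := p ^ 2 * m) hr (by rw [e, D.card]) hn h)
  rwa [D.dSt, Nat.cast_pow] at this

theorem zm' {g : G} {r : ℕ} (hr : r.Prime) (hm : r ∣ m) (h : r ∣ orderOf g) :
    D.z g = -1 ∨ D.z g = w - 1 ∨ D.z g = -(w + 1) := by
  obtain ⟨k, h0, h1, h2, h3⟩ := D.arith
  obtain ⟨c, hc⟩ := D.zm hr hm h
  have ha := _root_.abs_le.1 (D.abs_le g)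
  have h4 : (p : ℤ) ^ 2 = w + 1 := by exact_mod_cast D.hw.symm
  rw [h4] at hc ha
  have h5 : D.z g + 1 = w * (c - D.z g) := by linear_combination hc
  generalize c - D.z g = d at h5
  have hw : (8 : ℤ) ≤ w := by omega
  have : -2 < d := by nlinarith
  have : d < 2 := by nlinarith
  have : d = -1 ∨ d = 0 ∨ d = 1 := by omega
  rcases this with rfl | rfl | rfl <;> omega

theorem zw' {g : G} {r : ℕ} (hr : r.Prime) (hw : r ∣ w) (h : r ∣ orderOf g) :
    D.z g = 1 ∨ D.z g = m + 1 ∨ D.z g = 1 - m ∨ D.z g = -(w + 1) := by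
  obtain ⟨k, h0, h1, h2, h3⟩ := D.arith
  obtain ⟨c, hc⟩ := D.zw hr hw h
  have ha := _root_.abs_le.1 (D.abs_le g)
  have h4 : (p : ℤ) ^ 2 = 2 * m - 1 := by
    have : (p : ℤ) ^ 2 + 1 = 2 * m := by exact_mod_cast D.hm
    linarith
  rw [h4] at hc ha
  have h5 : D.z g - 1 = m * (2 * D.z g - c) := by linear_combination -hc
  generalize 2 * D.z g - c = d at h5
  have hm : (5 : ℤ) ≤ m := by omega
  have : -3 < d := by nlinarith
  have : d < 2 := by nlinarith
  have : d = -2 ∨ d = -1 ∨ d = 0 ∨ d = 1 := by omega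
  rcases this with rfl | rfl | rfl | rfl <;> omega

theorem not_pm {g : G} {r : ℕ} (hr : r.Prime) (hm : r ∣ m) (h : r ∣ orderOf g) :
    ¬ p ∣ orderOf g := fun h1 => by
  have := D.zm' hr hm h
  rw [D.zp h1] at this
  obtain ⟨k, h0, h1, h2, h3⟩ := D.arith
  omega

theorem not_pw {g : G} {r : ℕ} (hr : r.Prime) (hw : r ∣ w) (h : r ∣ orderOf g) :
    ¬ p ∣ orderOf g := fun h1 => by
  have := D.zw' hr hw h
  rw [D.zp h1] at this
  obtain ⟨k, h0, h1, h2, h3⟩ := D.arith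
  omega

theorem not_mw {g : G} {r s : ℕ} (hr : r.Prime) (hm : r ∣ m) (h : r ∣ orderOf g)
    (hs : s.Prime) (hw : s ∣ w) : ¬ s ∣ orderOf g := fun h1 => by
  obtain ⟨k, h0, h2, h3, h4⟩ := D.arith
  have a := D.zm' hr hm h
  have b := D.zw' hs hw h1
  have hz : D.z g = -(w + 1) := by omega
  have h5 : D.z 1 = w + 1 := by rw [D.z_one]; exact_mod_cast D.hw.symm
  obtain ⟨ω, hω⟩ := H6.char_mul_of_norm_eq (irr_chr D.St) (g := g) (by
    rw [D.hz, D.hz, hz, h5]; push_cast; rw [norm_neg])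
  have e1 := hω 1
  have e2 := hω g
  rw [mul_one, D.hz, D.hz, hz, h5] at e1
  rw [D.hz, D.hz, hz] at e2
  have hne : ((w : ℂ) + 1) ≠ 0 := by exact_mod_cast Nat.succ_ne_zero w
  push_cast at e1 e2
  have hω1 : ω = -1 := by
    apply mul_right_cancel₀ hne
    linear_combination -e1
  have e3 : D.z (g * g) = w + 1 := by
    have : ((D.z (g * g) : ℤ) : ℂ) = ((w + 1 : ℤ) : ℂ) := by
      rw [e2, hω1]; push_cast; ring
    exact_mod_cast this
  have hr2 : r ≠ 2 := by rintro rfl; omega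
  have h6 : r ∣ orderOf (g * g) := by
    rw [← sq, orderOf_pow' _ two_ne_zero]
    have h7 : (orderOf g).gcd 2 ∣ orderOf g := Nat.gcd_dvd_left _ _
    have h8 : Nat.Coprime r ((orderOf g).gcd 2) :=
      ((Nat.coprime_primes hr Nat.prime_two).2 hr2).coprime_dvd_right (Nat.gcd_dvd_right _ _)
    apply h8.dvd_of_dvd_mul_right
    rwa [Nat.div_mul_cancel h7]
  have := D.zm' hr hm h6
  omega

theorem cases_prime {r : ℕ} (hr : r.Prime) (h : r ∣ Nat.card G) : r = p ∨ r ∣ m ∨ r ∣ w := by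
  rw [D.card] at h
  rcases (Nat.Prime.dvd_mul hr).1 h with h | h
  · rcases (Nat.Prime.dvd_mul hr).1 h with h | h
    · exact Or.inl ((Nat.prime_dvd_prime_iff_eq hr D.hp).1 (hr.dvd_of_dvd_pow h))
    · exact Or.inr (Or.inl h)
  · exact Or.inr (Or.inr h)

theorem cent_p {g : G} (h : p ∣ orderOf g) :
    Nat.card (Subgroup.centralizer ({g} : Set G)) ∣ p ^ 2 := by
  have h1 : Nat.card (Subgroup.centralizer ({g} : Set G)) ∣ p ^ 2 * (m * w) := by
    rw [← mul_assoc, ← D.card]; exact Subgroup.card_subgroup_dvd_card _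
  refine Nat.Coprime.dvd_of_dvd_mul_right (Nat.coprime_of_dvd fun s hs h2 h3 => ?_) h1
  obtain ⟨x, a, b⟩ := mix D.hp hs h h2
  rcases (Nat.Prime.dvd_mul hs).1 h3 with c | c
  · exact D.not_pm hs c b a
  · exact D.not_pw hs c b a

theorem cent_m {g : G} {r : ℕ} (hr : r.Prime) (hm : r ∣ m) (h : r ∣ orderOf g) :
    Nat.card (Subgroup.centralizer ({g} : Set G)) ∣ m := by
  have h1 : Nat.card (Subgroup.centralizer ({g} : Set G)) ∣ m * (p ^ 2 * w) := by
    rw [show m * (p ^ 2 * w) = p ^ 2 * m * w by ring, ← D.card]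
    exact Subgroup.card_subgroup_dvd_card _
  refine Nat.Coprime.dvd_of_dvd_mul_right (Nat.coprime_of_dvd fun s hs h2 h3 => ?_) h1
  obtain ⟨x, a, b⟩ := mix hr hs h h2
  rcases (Nat.Prime.dvd_mul hs).1 h3 with c | c
  · have : s = p := (Nat.prime_dvd_prime_iff_eq hs D.hp).1 (hs.dvd_of_dvd_pow c)
    exact D.not_pm hr hm a (this ▸ b)
  · exact D.not_mw hr hm a hs c b

theorem cent_w {g : G} {r : ℕ} (hr : r.Prime) (hw : r ∣ w) (h : r ∣ orderOf g) :
    Nat.card (Subgroup.centralizer ({g} : Set G)) ∣ w := by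
  have h1 : Nat.card (Subgroup.centralizer ({g} : Set G)) ∣ w * (p ^ 2 * m) := by
    rw [show w * (p ^ 2 * m) = p ^ 2 * m * w by ring, ← D.card]
    exact Subgroup.card_subgroup_dvd_card _
  refine Nat.Coprime.dvd_of_dvd_mul_right (Nat.coprime_of_dvd fun s hs h2 h3 => ?_) h1
  obtain ⟨x, a, b⟩ := mix hr hs h h2
  rcases (Nat.Prime.dvd_mul hs).1 h3 with c | c
  · have : s = p := (Nat.prime_dvd_prime_iff_eq hs D.hp).1 (hs.dvd_of_dvd_pow c)
    exact D.not_pw hr hw a (this ▸ b)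
  · exact D.not_mw hs c b hr hw a

theorem z_sq {g : G} (h1 : g ≠ 1) (h : ¬ p ∣ orderOf g) : D.z g ^ 2 = 1 := by
  obtain ⟨k, h0, h2, h3, h4⟩ := D.arith
  obtain ⟨r, hr, hrg⟩ := Nat.exists_prime_and_dvd (n := orderOf g) (by rwa [Ne, orderOf_eq_one_iff])
  have hle := sq_le_cent D.St (D.hz g)
  rcases D.cases_prime hr (hrg.trans (orderOf_dvd_natCard g)) with e | e | e
  · exact absurd (e ▸ hrg) h
  · have a := Nat.le_of_dvd (by omega) (D.cent_m hr e hrg)
    have a' : D.z g ^ 2 ≤ m := hle.trans (by exact_mod_cast a)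
    have hk : (1 : ℤ) ≤ k := by exact_mod_cast h0
    rcases D.zm' hr e hrg with b | b | b <;> rw [b] at a' ⊢
    · norm_num
    · exfalso; rw [h2, h3] at a'; push_cast at a'; nlinarith
    · exfalso; rw [h2, h3] at a'; push_cast at a'; nlinarith
  · have a := Nat.le_of_dvd (by omega) (D.cent_w hr e hrg)
    have a' : D.z g ^ 2 ≤ w := hle.trans (by exact_mod_cast a)
    have hk : (1 : ℤ) ≤ k := by exact_mod_cast h0
    rcases D.zw' hr e hrg with b | b | b | b <;> rw [b] at a' ⊢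
    · norm_num
    · exfalso; rw [h2, h3] at a'; push_cast at a'; nlinarith
    · exfalso; rw [h2, h3] at a'; push_cast at a'; nlinarith
    · exfalso; rw [h3] at a'; push_cast at a'; nlinarith

theorem card_sing : Nat.card {g : G // p ∣ orderOf g} + 1 = (p ^ 2) ^ 2 := by
  classical
  haveI := Fintype.ofFinite G
  have h1 := H6.card_mul_classInner (D.St : G → ℂ) (D.St : G → ℂ)
  rw [H6.irr_inner_self D.St.2, mul_one] at h1
  simp only [D.hz, map_intCast] at h1
  have h2 : (Nat.card G : ℤ) = ∑ g, D.z g ^ 2 := by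
    have : ((Nat.card G : ℤ) : ℂ) = ((∑ g, D.z g ^ 2 : ℤ) : ℂ) := by
      push_cast; rw [h1]; simp only [sq]
    exact_mod_cast this
  have h3 : ∀ g : G, D.z g ^ 2 + (if p ∣ orderOf g then 1 else 0) =
      1 + (if g = 1 then ((p ^ 2) ^ 2 - 1 : ℤ) else 0) := by
    intro g
    by_cases hg : g = 1
    · subst hg
      rw [D.z_one, if_pos rfl, if_neg (by rw [orderOf_one]; exact D.hp.one_lt.ne' ∘ Nat.dvd_one.1)]
      ring
    · rw [if_neg hg]
      by_cases hp : p ∣ orderOf g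
      · rw [if_pos hp, D.zp hp]; ring
      · rw [if_neg hp, D.z_sq hg hp]
  have h4 := Finset.sum_congr (s₁ := Finset.univ) rfl fun g _ => h3 g
  rw [Finset.sum_add_distrib, Finset.sum_add_distrib, ← h2, Finset.sum_ite_eq', if_pos (Finset.mem_univ _),
    Finset.sum_boole, Finset.sum_const, Finset.card_univ, ← Nat.card_eq_fintype_card] at h4
  rw [Nat.card_eq_fintype_card, Fintype.card_subtype]
  simp only [nsmul_eq_mul, mul_one] at h4
  have : (((Finset.univ.filter fun g : G => p ∣ orderOf g).card + 1 : ℕ) : ℤ) = ((p ^ 2) ^ 2 : ℕ) := by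
    push_cast; linarith
  exact_mod_cast this

end Dat

end H85.L2D
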