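import Mathlib
import Cfsg.Agent.Lib.H85.L2Da
import Cfsg.Agent.S0742

set_option autoImplicit false
set_option linter.unusedSectionVars false
set_option linter.style.haveILetI false

/-! Groups with the character degrees of `L₂(p²)`: the action on the Sylow `p`-subgroups. -/

open Cfsg H17.Ord MulAction

namespace H85.L2D

variable {G : Type*} [Group G] [Finite G]

theorem card_two {Ω : Type*} [MulAction G Ω] [Finite Ω] (h2 : IsMultiplyPretransitive G Ω 2)
    {a b : Ω} (hab : a ≠ b) : Nat.card G =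
      (Nat.card Ω * Nat.card Ω - Nat.card Ω) * Nat.card ↥(stabilizer G a ⊓ stabilizer G b) := by
  classical
  haveI := Fintype.ofFinite Ω
  have h1 : stabilizer G (a, b) = stabilizer G a ⊓ stabilizer G b := by
    ext g; simp [mem_stabilizer_iff, Prod.ext_iff]
  have h3 : orbit G (a, b) = (Finset.univ.offDiag : Finset (Ω × Ω)) := by
    ext ⟨c, d⟩
    simp only [mem_orbit_iff, Prod.smul_mk, Prod.mk.injEq, Finset.mem_coe, Finset.mem_offDiag,
      Finset.mem_univ, true_and]
    constructor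
    · rintro ⟨g, rfl, rfl⟩ h
      exact hab (smul_left_cancel g h)
    · intro h
      exact is_two_pretransitive_iff.1 h2 hab h
  rw [← h1, ← Subgroup.index_mul_card (stabilizer G (a, b)), index_stabilizer, h3,
    Set.ncard_coe_finset, Finset.offDiag_card, Finset.card_univ, ← Nat.card_eq_fintype_card]

namespace Dat

variable {p m w : ℕ} [hp : Fact p.Prime] (D : Dat G p m w)
include D

theorem card_P (P : Sylow p G) : Nat.card (P : Subgroup G) = p ^ 2 := by
  have h1 : p ^ 2 ∣ Nat.card P :=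
    P.pow_dvd_card_of_pow_dvd_card (by rw [D.card, mul_assoc]; exact dvd_mul_right _ _)
  have h2 : Nat.card P ∣ p ^ 2 * (m * w) := by
    rw [← mul_assoc, ← D.card]; exact Subgroup.card_subgroup_dvd_card _
  obtain ⟨n, hn⟩ := P.isPGroup'.exists_card_eq
  refine Nat.dvd_antisymm (Nat.Coprime.dvd_of_dvd_mul_right ?_ h2) h1
  rw [hn]
  exact Nat.Coprime.pow_left _ (Nat.Coprime.coprime_dvd_left (dvd_pow_self p two_ne_zero)
    (D.cop_pm.mul_right D.cop_pw))

theorem sing_of_mem {P : Sylow p G} {x : G} (hx : x ∈ P) (h1 : x ≠ 1) : p ∣ orderOf x := by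
  obtain ⟨n, hn⟩ := IsPGroup.iff_orderOf.1 P.isPGroup' ⟨x, hx⟩
  rw [← Subgroup.orderOf_coe] at hn
  change orderOf x = _ at hn
  rcases n with _ | n
  · rw [pow_zero, orderOf_eq_one_iff] at hn; exact absurd hn h1
  · rw [hn]; exact dvd_pow_self p n.succ_ne_zero

theorem cent_eq {P : Sylow p G} {x : G} (hx : x ∈ P) (h1 : x ≠ 1) :
    Subgroup.centralizer ({x} : Set G) = P := by
  symm
  apply Subgroup.eq_of_le_of_card_ge
  · intro y hy
    rw [Subgroup.mem_centralizer_iff]
    rintro _ rfl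
    haveI := IsPGroup.isMulCommutative_of_card_eq_prime_sq (D.card_P P)
    exact congrArg Subtype.val (mul_comm' (⟨_, hx⟩ : (P : Subgroup G)) ⟨y, hy⟩)
  · rw [D.card_P]
    exact Nat.le_of_dvd (pow_pos hp.out.pos _) (D.cent_p (D.sing_of_mem hx h1))

theorem eq_of_mem {P Q : Sylow p G} {x : G} (hP : x ∈ P) (hQ : x ∈ Q) (h1 : x ≠ 1) : P = Q :=
  Sylow.ext ((D.cent_eq hP h1).symm.trans (D.cent_eq hQ h1))

theorem exists_mem {x : G} (h : p ∣ orderOf x) : ∃ P : Sylow p G, x ∈ P := by
  have h1 : orderOf x ∣ p ^ 2 := by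
    refine dvd_trans ?_ (D.cent_p h)
    have hx : x ∈ Subgroup.centralizer ({x} : Set G) := by
      rw [Subgroup.mem_centralizer_iff]; rintro _ rfl; rfl
    exact Subgroup.orderOf_dvd_natCard _ hx
  obtain ⟨k, -, hk⟩ := (Nat.dvd_prime_pow hp.out).1 h1
  obtain ⟨P, hP⟩ := (IsPGroup.of_card (G := Subgroup.zpowers x) (n := k)
    (by rw [Nat.card_zpowers, hk])).exists_le_sylow
  exact ⟨P, hP (Subgroup.mem_zpowers x)⟩

theorem card_Syl : Nat.card (Sylow p G) = w + 2 := by
  classical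
  haveI := Fintype.ofFinite (Sylow p G)
  have e : {g : G // p ∣ orderOf g} ≃ Σ P : Sylow p G, {x : (P : Subgroup G) // x ≠ 1} := by
    refine (Equiv.ofBijective (fun y => ⟨y.2.1.1, D.sing_of_mem y.2.1.2 fun h => y.2.2 (Subtype.ext h)⟩)
      ⟨?_, ?_⟩).symm
    · rintro ⟨P, ⟨x, hx⟩, h1⟩ ⟨Q, ⟨y, hy⟩, h2⟩ h
      have h3 : x = y := congrArg Subtype.val h
      subst h3
      obtain rfl : P = Q := D.eq_of_mem hx hy fun h => h1 (Subtype.ext h)
      rfl
    · rintro ⟨x, hx⟩
      obtain ⟨P, hP⟩ := D.exists_mem hx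
      exact ⟨⟨P, ⟨x, hP⟩, fun h => D.ne_one_of hp.out hx (congrArg Subtype.val h)⟩, rfl⟩
  have h1 := D.card_sing
  have h2 : ∀ P : Sylow p G, Nat.card {x : (P : Subgroup G) // x ≠ 1} = w := fun P => by
    haveI := Fintype.ofFinite (P : Subgroup G)
    have := D.card_P P
    rw [Nat.card_eq_fintype_card] at this ⊢
    rw [Fintype.card_subtype_compl, Fintype.card_subtype_eq, this, ← D.hw]
    rfl
  rw [Nat.card_congr e, Nat.card_sigma, Finset.sum_congr rfl fun P _ => h2 P, Finset.sum_const,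
    Finset.card_univ, smul_eq_mul, ← Nat.card_eq_fintype_card, ← D.hw] at h1
  obtain ⟨k, h0, -, h3, -⟩ := D.arith
  apply Nat.eq_of_mul_eq_mul_right (by omega : 0 < w)
  nlinarith

theorem eq_one_of_fix {P Q : Sylow p G} (h : P ≠ Q) {x : G} (hx : x ∈ P) (hf : x • Q = Q) :
    x = 1 := by
  by_contra h1
  have : x ∈ (P : Subgroup G) ⊓ Subgroup.normalizer (Q : Set G) :=
    ⟨hx, Sylow.smul_eq_iff_mem_normalizer.1 hf⟩
  rw [P.isPGroup'.inf_normalizer_sylow] at this
  exact h (D.eq_of_mem hx this.2 h1)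

theorem smul_self {P : Sylow p G} {x : G} (hx : x ∈ P) : x • P = P :=
  Sylow.smul_eq_iff_mem_normalizer.2 (Subgroup.le_normalizer hx)

theorem exists_smul {P Q R : Sylow p G} (hQ : P ≠ Q) (hR : P ≠ R) : ∃ x ∈ P, x • Q = R := by
  classical
  haveI := Fintype.ofFinite (Sylow p G)
  let f : ↥(P : Subgroup G) → {S : Sylow p G // ¬ S = P} := fun x => ⟨(x : G) • Q, fun h => hQ
    (smul_left_cancel (x : G) (h.trans (D.smul_self x.2).symm)).symm⟩
  have hinj : Function.Injective f := fun x y h => by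
    have h1 : (x : G) • Q = (y : G) • Q := congrArg Subtype.val h
    have h2 : ((y : G)⁻¹ * x) • Q = Q := by rw [mul_smul, h1, inv_smul_smul]
    have := D.eq_one_of_fix hQ (mul_mem (inv_mem y.2) x.2) h2
    exact Subtype.ext (inv_mul_eq_one.1 this).symm
  have hb : Function.Bijective f := hinj.bijective_of_nat_card_le (by
    have := D.card_Syl
    rw [D.card_P P, Nat.card_eq_fintype_card, Fintype.card_subtype_compl, Fintype.card_subtype_eq,
      ← Nat.card_eq_fintype_card, this, ← D.hw]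
    omega)
  obtain ⟨x, hx⟩ := hb.2 ⟨R, fun h => hR h.symm⟩
  exact ⟨x, x.2, congrArg Subtype.val hx⟩

theorem two_trans : IsMultiplyPretransitive G (Sylow p G) 2 := by
  rw [is_two_pretransitive_iff]
  intro a b c d hab hcd
  obtain ⟨g, rfl⟩ := exists_smul_eq G a c
  obtain ⟨x, hx, h⟩ := D.exists_smul (P := g • a) (Q := g • b)
    (fun h => hab (smul_left_cancel g h)) hcd
  exact ⟨x * g, by rw [mul_smul, D.smul_self hx], by rw [mul_smul, h]⟩

theorem three (g : G) (a b c : Sylow p G) (hab : a ≠ b) (hbc : b ≠ c) (hac : a ≠ c)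
    (ha : g • a = a) (hb : g • b = b) (hc : g • c = c) : g = 1 := by
  obtain ⟨x, hx, h⟩ := D.exists_smul hab hac
  have hx1 : x ≠ 1 := by rintro rfl; rw [one_smul] at h; exact hbc h
  have hn : g ∈ Subgroup.normalizer (a : Set G) := Sylow.smul_eq_iff_mem_normalizer.1 ha
  have h1 : g * x * g⁻¹ ∈ a := (Subgroup.mem_normalizer_iff.1 hn x).1 hx
  have h2 : (x⁻¹ * (g * x * g⁻¹)) • b = b := by
    rw [mul_smul, mul_smul, mul_smul, inv_smul_eq_iff.2 hb.symm, h, hc, ← h, inv_smul_smul]
  have h3 := D.eq_one_of_fix hab (mul_mem (inv_mem hx) h1) h2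
  have h4 : g ∈ Subgroup.centralizer ({x} : Set G) := by
    rw [Subgroup.mem_centralizer_iff]
    rintro _ rfl
    rw [inv_mul_eq_one] at h3
    nth_rewrite 1 [h3]
    simp
  rw [D.cent_eq hx hx1] at h4
  exact D.eq_one_of_fix hab h4 hb

theorem card_stab {a b : Sylow p G} (hab : a ≠ b) :
    2 * Nat.card ↥(stabilizer G a ⊓ stabilizer G b) = w := by
  have h := card_two D.two_trans hab
  obtain ⟨k, h0, h1, h2, h3⟩ := D.arith
  rw [D.card_Syl, D.card, h3, h1, h2,
    show (8 * k + 2) * (8 * k + 2) - (8 * k + 2) = (8 * k + 2) * (8 * k + 1) from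
      Nat.sub_eq_of_eq_add (by ring)] at h
  rw [h2]
  apply Nat.eq_of_mul_eq_mul_right (by positivity : 0 < (8 * k + 1) * (4 * k + 1))
  nlinarith

theorem zass : IsZassenhausGroup G (Sylow p G) := by
  classical
  haveI := Fintype.ofFinite (Sylow p G)
  obtain ⟨k, h0, h1, h2, h3⟩ := D.arith
  have hc := D.card_Syl
  obtain ⟨a, b, c, hab, hac, hbc⟩ := Fintype.two_lt_card_iff.1
    (show 2 < Fintype.card (Sylow p G) by rw [← Nat.card_eq_fintype_card]; omega)
  refine ⟨⟨fun {g h} hgh => ?_⟩, D.two_trans, D.three, ?_, fun N hN ht => ?_⟩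
  · have : ∀ s : Sylow p G, (h⁻¹ * g) • s = s := fun s => by rw [mul_smul, hgh, inv_smul_smul]
    exact (inv_mul_eq_one.1 (D.three _ a b c hab hbc hac (this a) (this b) (this c))).symm
  · have h4 := D.card_stab hab
    haveI : Nontrivial ↥(stabilizer G a ⊓ stabilizer G b) :=
      Finite.one_lt_card_iff_nontrivial.1 (by omega)
    obtain ⟨g, hg⟩ := exists_ne (1 : ↥(stabilizer G a ⊓ stabilizer G b))
    exact ⟨g, fun h => hg (Subtype.ext h), a, b, hab, g.2.1, g.2.2⟩
  · by_contra hr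
    push Not at hr
    have h5 : Nat.card N = w + 2 := by
      rw [← hc, ← Subgroup.index_mul_card (stabilizer N a), index_stabilizer_of_transitive, hr a]
      simp
    haveI := Fact.mk Nat.prime_two
    obtain ⟨t, ht2⟩ := exists_prime_orderOf_dvd_card' (G := N) 2 (by rw [h5]; omega)
    have h6 : orderOf (t : G) = 2 := by rw [Subgroup.orderOf_coe, ht2]
    have h7 := Nat.le_of_dvd (by omega) (D.cent_w Nat.prime_two (by omega) (h6.symm ▸ dvd_rfl : 2 ∣ orderOf (t : G)))
    have h8 : (Subgroup.centralizer ({(t : G)} : Set G)).index ≤ Nat.card N := by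
      refine Nat.card_le_card_of_injective (fun q : G ⧸ Subgroup.centralizer ({(t : G)} : Set G) =>
        (⟨q.out * t * q.out⁻¹, hN.conj_mem _ t.2 _⟩ : N)) fun q q' h => ?_
      have e : q.out * t * q.out⁻¹ = q'.out * t * q'.out⁻¹ := congrArg Subtype.val h
      rw [← q.out_eq', ← q'.out_eq', QuotientGroup.eq, Subgroup.mem_centralizer_iff]
      rintro _ rfl
      calc (t : G) * (q.out⁻¹ * q'.out) = q.out⁻¹ * (q.out * t * q.out⁻¹) * q'.out := by group
        _ = _ := by rw [e]; group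
    have h9 := Subgroup.index_mul_card (Subgroup.centralizer ({(t : G)} : Set G))
    rw [D.card, h3, h1] at h9
    rw [h5] at h8
    have := Nat.mul_le_mul h8 h7
    rw [h9, h2] at this
    have h10 : (8 * k + 1) * (4 * k + 1) ≤ 8 * k + 2 := Nat.le_of_mul_le_mul_right this (by omega)
    nlinarith

theorem iso : ∃ (K : Type) (_ : Field K) (_ : Fintype K), Fintype.card K = p ^ 2 ∧
    Nonempty (G ≃* Matrix.ProjectiveSpecialLinearGroup (Fin 2) K) := by
  classical
  haveI := Fintype.ofFinite (Sylow p G)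
  obtain ⟨k, h0, h1, h2, h3⟩ := D.arith
  have hc := D.card_Syl
  obtain ⟨a, b, hab⟩ := Fintype.one_lt_card_iff.1
    (show 1 < Fintype.card (Sylow p G) by rw [← Nat.card_eq_fintype_card]; omega)
  have h4 := D.card_stab hab
  rw [Nat.card_eq_fintype_card] at hc
  obtain ⟨r, f, K, _, _, -, -, h5, h6, h7⟩ := Cfsg.Agent.S0742.result D.zass hab
    ⟨2 * k, by omega⟩ (by omega)
  exact ⟨K, inferInstance, inferInstance, by omega, h7⟩

end Dat

end H85.L2D
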