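import Mathlib
import Cfsg.Agent.Lib.H85.McK
import Cfsg.Agent.Lib.Core.Frattini

/-! The absolute McKay count for `p`-solvable groups and the real odd-degree characters. -/

set_option autoImplicit false
set_option linter.unusedSectionVars false
set_option linter.style.haveILetI false

namespace H85

open Cfsg H87 Subgroup
open scoped ComplexConjugate commutatorElement

universe u v w

theorem mckay_abs {p : ℕ} [Fact p.Prime] {r : Prop} (hr : r → p = 2) {G : Type u} [Group G]
    [Finite G] (hG : H3.IsPiSeparable {p} G) (S : Sylow p G) :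
    Nat.card {χ : IrrCharacter G // ¬ p ∣ charDegree χ.1 ∧ (r → IsReal χ.1)} =
      Nat.card {χ : IrrCharacter (normalizer ((S : Subgroup G) : Set G)) //
        ¬ p ∣ charDegree χ.1 ∧ (r → IsReal χ.1)} := by
  haveI : (⊥ : Subgroup G).subtype.range.Normal := by rw [range_subtype]; infer_instance
  have h1 := H6.isIrrCharacter_hom (1 : (⊥ : Subgroup G) →* ℂˣ)
  have := mckay hr hG S (⊥ : Subgroup G).subtype_injective
    (normalizer ((S : Subgroup G) : Set G)).subtype_injective
    (fun x => by rw [range_subtype, range_subtype, bot_sup_eq]) (j' := inclusion bot_le)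
    (fun _ => rfl) h1 (fun _ _ _ _ _ => rfl) (fun _ _ => by simp)
  have key : ∀ {X : Type u} [Group X] [Finite X] (j : (⊥ : Subgroup G) →* X),
      cnt p r j (fun l => ((1 : (⊥ : Subgroup G) →* ℂˣ) l : ℂ)) =
        Nat.card {χ : IrrCharacter X // ¬ p ∣ charDegree χ.1 ∧ (r → IsReal χ.1)} := fun j =>
    Nat.card_congr (Equiv.subtypeEquivRight fun χ => ⟨fun h => ⟨h.1, h.2.1⟩, fun h => ⟨h.1, h.2,
      ov_of_eq_mul h1 (H6.irr_one_ne_zero χ.2) fun l => by
        rw [Subsingleton.elim l 1, map_one]; simp⟩⟩)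
  rwa [key, key] at this

theorem forall_iff_card_eq {A : Type*} [Finite A] {P Q : A → Prop} :
    (∀ a, P a → Q a) ↔ Nat.card {a // P a ∧ Q a} = Nat.card {a // P a} := by
  refine ⟨fun h => Nat.card_congr (Equiv.subtypeEquivRight fun a => ⟨And.left, fun h' =>
    ⟨h', h a h'⟩⟩), fun h a ha => ?_⟩
  have : {a | P a ∧ Q a} = {a | P a} :=
    Set.eq_of_subset_of_ncard_le (fun _ h => h.1) (le_of_eq h.symm)
  exact (this.ge ha).2

theorem odd_real_iff_of_normal {N : Type*} [Group N] [Finite N] (S : Sylow 2 N)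
    [(S : Subgroup N).Normal] :
    (∀ χ : IrrCharacter N, ¬ 2 ∣ charDegree χ.1 → IsReal χ.1) ↔
      (∀ x : N, x ^ 2 ∈ commutator N) ∧ (S : Subgroup N) = ⊤ := by
  constructor
  · intro h
    have h1 : (S : Subgroup N) = ⊤ := by
      letI := Fintype.ofFinite (N ⧸ (S : Subgroup N))
      have h2 : (⊤ : Subgroup (N ⧸ (S : Subgroup N))) = ⊥ :=
        eq_bot_of_forall_le_charKer fun ψ hψ => by
          rw [top_le_iff, charKer_eq_top_iff hψ]
          refine eq_one_of_isReal_of_odd (Nat.odd_iff.2 (Nat.two_dvd_ne_zero.1 S.not_dvd_index))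
            hψ fun q => ?_
          obtain ⟨x, rfl⟩ := QuotientGroup.mk_surjective q
          refine h ⟨_, isIrr_infl _ hψ⟩ (fun hd => S.not_dvd_index ?_) x
          rw [deg_infl] at hd
          exact hd.trans (deg_dvd_card hψ)
      refine top_unique fun x _ => (QuotientGroup.eq_one_iff x).1 ?_
      exact mem_bot.1 (h2 ▸ mem_top _)
    refine ⟨fun x => ?_, h1⟩
    by_contra hx
    obtain ⟨χ, h2, h3, h4⟩ := exists_irr_ker_of_not_mem _ hx
    have h5 := deg_eq_one_of_commutator_le h2 h3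
    refine h4 (sq x ▸ mul_self_mem_charKer_of_isReal h2 (h ⟨χ, h2⟩ (by rw [h5]; decide)) ?_)
    obtain ⟨lam, rfl⟩ := H6.exists_hom_of_char_one_eq_one (H6.irr_isCharacter h2)
      ((deg_eq_one_iff (H6.irr_isCharacter h2)).1 h5)
    simp only [norm_hom_one]
  · rintro ⟨h1, h2⟩ χ hd
    have hN : IsPGroup 2 N := (h2 ▸ S.isPGroup' : IsPGroup 2 (⊤ : Subgroup N)).of_equiv topEquiv
    obtain ⟨k, hk⟩ := deg_pow_of_isPGroup hN χ.2
    obtain rfl : k = 0 := by
      by_contra h0
      exact hd (hk ▸ dvd_pow_self 2 h0)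
    obtain ⟨lam, h3⟩ := H6.exists_hom_of_char_one_eq_one (H6.irr_isCharacter χ.2)
      ((deg_eq_one_iff (H6.irr_isCharacter χ.2)).1 hk)
    intro x
    have h4 := H31.hom_eq_one_of_mem_commutator lam (h1 x)
    rw [map_pow] at h4
    have h5 : (lam x : ℂ) ^ 2 = 1 := by rw [← Units.val_pow_eq_pow_val, h4, Units.val_one]
    rw [h3]
    rcases sq_eq_one_iff.1 h5 with h | h <;> simp [h]

end H85
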