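import Mathlib
import Cfsg.Agent.Lib.H85.FPS
import Cfsg.Agent.Lib.H85.Tri
import Cfsg.Agent.Lib.Char.GoingDown
import Cfsg.Agent.Lib.Core.Fitting
import Cfsg.Agent.Lib.Core.Hall

/-! Degrees of primitive characters of solvable groups and conjugacy class sizes. -/

set_option autoImplicit false
set_option linter.unusedSectionVars false
set_option linter.style.haveILetI false

namespace H85

open Cfsg H87 Subgroup
open scoped commutatorElement

universe u v w

theorem le_ker_of_pgroup {G V : Type*} [Group G] [Group V] [Finite V] {p : ℕ} [hp : Fact p.Prime]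
    (hV : IsPGroup p V) (φ : G →* MulAut V)
    (hirr : ∀ W : Subgroup V, (∀ x, ∀ w ∈ W, φ x w ∈ W) → W = ⊥ ∨ W = ⊤) (D : Subgroup G)
    [hD : D.Normal] (h : ∀ y ∈ D, ∃ k, φ y ^ p ^ k = 1) : D ≤ φ.ker := by
  rcases subsingleton_or_nontrivial V with hV1 | hV1
  · exact fun y _ => MulEquiv.ext fun v => Subsingleton.elim _ _
  have hp' : IsPGroup p (D.map φ) := by
    rintro ⟨_, y, hy, rfl⟩
    obtain ⟨k, hk⟩ := h y hy
    exact ⟨k, Subtype.ext hk⟩
  obtain ⟨v, h1, h2⟩ := hp'.exists_fixed_point_of_prime_dvd_card_of_fixed_point V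
    (hV.card_eq_or_dvd.resolve_left (Finite.one_lt_card (α := V)).ne') (a := 1)
    (fun a => map_one (a : MulAut V))
  have := (hirr (⨅ a : D, fixE (φ a).toMonoidHom) fun x w hw => by
    rw [mem_iInf] at hw ⊢
    intro a
    have := hw ⟨_, hD.conj_mem _ a.2 x⁻¹⟩
    rw [mem_fixE] at this ⊢
    simpa using congrArg (φ x) this).resolve_left fun e =>
      h2 (mem_bot.1 (e ▸ mem_iInf.2 fun a => h1 ⟨φ a, a, a.2, rfl⟩)).symm
  exact fun y hy => MulEquiv.ext fun v => mem_iInf.1 (this ▸ mem_top v) ⟨y, hy⟩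

theorem relIndex_sup_normal {G : Type*} [Group G] [Finite G] (H K : Subgroup G) [K.Normal] :
    H.relIndex (H ⊔ K) = H.relIndex K := by
  have e1 := relIndex_inf_mul_relIndex H K (H ⊔ K)
  have e2 := relIndex_inf_mul_relIndex K H (H ⊔ K)
  rw [inf_of_le_left le_sup_right, relIndex_sup_right] at e1
  rw [inf_of_le_left le_sup_left, inf_comm, ← e1, mul_comm] at e2
  exact Nat.eq_of_mul_eq_mul_right (Nat.pos_of_ne_zero index_ne_zero_of_finite) e2

theorem relIndex_mul_index_dvd {G V : Type*} [Group G] [Finite G] [Group V] {C L K : Subgroup G}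
    [L.Normal] (hLK : L ≤ K) {π : K →* V} (hπ : Function.Surjective π)
    (hker : π.ker = L.subgroupOf K) {W : Subgroup V} (hW : (C.subgroupOf K).map π ≤ W) :
    C.relIndex L * W.index ∣ C.relIndex K := by
  have e := relIndex_mul_index (le_sup_left : C.subgroupOf K ≤ C.subgroupOf K ⊔ π.ker)
  have e2 := index_map (C.subgroupOf K) π
  rw [π.range_eq_top_of_surjective hπ, index_top, mul_one] at e2
  rw [relIndex_sup_normal, ← e2, hker, relIndex_subgroupOf hLK] at e
  exact (Nat.mul_dvd_mul_left _ (index_dvd_of_le hW)).trans (dvd_of_eq e)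

theorem sum_index_ge {G V : Type*} [Fintype G] [Group V] [Finite V] {p : ℕ} [hp : Fact p.Prime]
    (hV : IsPGroup p V) {e : ℕ} (he : e ^ 2 = Nat.card V) (W : G → Subgroup V)
    (h : ∏ x, Nat.card (W x) ^ 2 ≤ Nat.card V ^ Nat.card G) :
    Nat.card G * e.factorization p ≤ ∑ x, (W x).index.factorization p := by
  obtain ⟨j, hj⟩ := IsPGroup.iff_card.1 hV
  have h1 : ∀ x, (W x).index = p ^ (W x).index.factorization p := fun x => by
    obtain ⟨k, -, hk⟩ := (Nat.dvd_prime_pow hp.out).1 (hj ▸ (W x).index_dvd_card)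
    rw [hk, Nat.factorization_pow_self hp.out]
  have h2 : 2 * e.factorization p = j := by
    have := congrArg (fun n : ℕ => n.factorization p) (he.trans hj)
    simpa [Nat.factorization_pow_self hp.out, hp.out.factorization_self] using this
  have h3 : (∏ x, Nat.card (W x) ^ 2) * ∏ x, (W x).index ^ 2 =
      Nat.card V ^ Nat.card G * Nat.card V ^ Nat.card G := by
    rw [← Finset.prod_mul_distrib]
    simp only [← mul_pow, card_mul_index]
    rw [Finset.prod_const, Finset.card_univ, ← Nat.card_eq_fintype_card, sq]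
  have h4 : Nat.card V ^ Nat.card G ≤ ∏ x, (W x).index ^ 2 := by
    refine Nat.le_of_mul_le_mul_left ?_ (pow_pos (Nat.card_pos (α := V)) (Nat.card G))
    rw [← h3]
    exact Nat.mul_le_mul_right _ h
  rw [Finset.prod_congr rfl fun x _ => by rw [h1 x], Finset.prod_pow, Finset.prod_pow_eq_pow_sum,
    hj, ← pow_mul, ← pow_mul, Nat.pow_le_pow_iff_right hp.out.one_lt, ← h2] at h4
  nlinarith

variable {G : Type*} [Group G] [Fintype G]

theorem inertia_eq_top_of_prim {χ : G → ℂ} (hχ : IsIrrCharacter G χ)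
    (hprim : ¬ ∃ H : Subgroup G, H ≠ ⊤ ∧ ∃ θ : H → ℂ, IsCharacter H θ ∧ indFun H θ = χ)
    {N : Subgroup G} [N.Normal] {θ : N → ℂ} (hθ : IsIrrCharacter N θ) (h : Over N χ θ) :
    H7.inertia θ = ⊤ := by
  by_contra hne
  obtain ⟨ψ, h1, h2, -, h3⟩ := Over.exists_corr (H7.le_inertia (H6.irr_isClassFunction hθ)) hθ
    le_rfl hχ h
  exact hprim ⟨_, hne, ψ, H6.irr_isCharacter h1, h2.eq_indFun hχ (H6.irr_isCharacter h1) h3.ge⟩

theorem prim_aux [Group.IsSolvable G] {χ : G → ℂ} (hχ : IsIrrCharacter G χ)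
    (hprim : ¬ ∃ H : Subgroup G, H ≠ ⊤ ∧ ∃ θ : H → ℂ, IsCharacter H θ ∧ indFun H θ = χ)
    (p : ℕ) [hp : Fact p.Prime] (D : Subgroup G) [D.Normal]
    (hD : ∀ y ∈ D, ∃ k, y ^ p ^ k ∈ fittingSubgroup G) (n : ℕ) :
    ∀ (K : Subgroup G) [K.Normal], Nat.card K = n → ∀ θ : K → ℂ, IsIrrCharacter K θ →
      Over K χ θ → ∃ ψ : G → ℕ,
        (∀ x, ψ x ≤ ((centralizer ({x} : Set G)).relIndex K).factorization p) ∧
        Nat.card G * (charDegree θ).factorization p ≤ ∑ x, ψ x ∧
        ∀ x, ∀ y ∈ D, ψ (x * y) = ψ x := by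
  classical
  induction n using Nat.strong_induction_on with
  | _ n ih =>
  intro K _ hn θ hθ ho
  by_cases hK : K = ⊥
  · subst hK
    refine ⟨0, fun _ => Nat.zero_le _, ?_, fun _ _ _ => rfl⟩
    rw [deg_eq_one_of_comm (fun a b => Subsingleton.elim _ _) hθ]
    simp
  obtain ⟨L, hL, -⟩ := H31.exists_chief_below (bot_lt_iff_ne_bot.2 hK)
  haveI := hL.normalL
  have hab := hL.commutator_le (H31.solvOver_of_isSolvable _)
  have hLK := hL.lt.le
  have tr : ∀ {φ : L → ℂ}, IsIrrCharacter L φ → Ov (inclusion hLK) θ φ → Over L χ φ :=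
    fun h1 h2 => ho.trans hLK h2 (H6.irr_isCharacter hχ) hθ (H6.irr_isCharacter h1)
  have step : ∀ (φ : L → ℂ) (e : ℕ), IsIrrCharacter L φ → e ≠ 0 →
      (∀ l, θ (inclusion hLK l) = e * φ l) → ∃ ψ : G → ℕ,
        (∀ x, ψ x ≤ ((centralizer ({x} : Set G)).relIndex L).factorization p) ∧
        Nat.card G * (charDegree θ).factorization p ≤ Nat.card G * e.factorization p + ∑ x, ψ x ∧
        ∀ x, ∀ y ∈ D, ψ (x * y) = ψ x := fun φ e h1 h2 h3 => by
    obtain ⟨ψ, a1, a2, a3⟩ := ih _ (hn ▸ H1.card_lt_of_lt hL.lt) L rfl φ h1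
      (tr h1 (ov_of_eq_mul h1 (Nat.cast_ne_zero.2 h2) h3))
    refine ⟨ψ, a1, ?_, a3⟩
    have : charDegree θ = e * charDegree φ := by
      rw [deg_eq_iff (H6.irr_isCharacter hθ), Nat.cast_mul, irr_deg_cast h1, ← h3, map_one]
    rw [this, Nat.factorization_mul h2 (deg_ne_zero h1), Finsupp.add_apply, mul_add]
    omega
  have mono : ∀ x : G, ((centralizer ({x} : Set G)).relIndex L).factorization p ≤
      ((centralizer ({x} : Set G)).relIndex K).factorization p := fun x => by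
    refine (Nat.factorization_le_iff_dvd index_ne_zero_of_finite index_ne_zero_of_finite).2 ?_ p
    exact (dvd_mul_right _ _).trans (relIndex_mul_index_dvd hLK
      (QuotientGroup.mk'_surjective (L.subgroupOf K)) (QuotientGroup.ker_mk' _) le_rfl)
  rcases H31.going_down hLK hL.eq_or_eq hab hθ
    (H7.inertia_eq_top_iff.1 (inertia_eq_top_of_prim hχ hprim hθ ho)) with
    h | ⟨φ, e, h1, h2, h3⟩ | ⟨F, h1, h2, h3⟩
  · obtain ⟨ψ, a1, a2, a3⟩ := step _ 1 h one_ne_zero fun l => by simp; rfl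
    exact ⟨ψ, fun x => (a1 x).trans (mono x), by simpa using a2, a3⟩
  · have he : e ≠ 0 := by
      rintro rfl
      exact index_ne_zero_of_finite (h3.symm.trans (by simp))
    obtain ⟨ψ, a1, a2, a3⟩ := step φ e h1 he fun l => congrFun h2 l
    by_cases hpe : p ∣ e
    swap
    · rw [Nat.factorization_eq_zero_of_not_dvd hpe] at a2
      exact ⟨ψ, fun x => (a1 x).trans (mono x), by simpa using a2, a3⟩
    obtain ⟨r, hr, hr'⟩ := hL.exists_prime hab
    obtain ⟨j, hj⟩ := H31.relIndex_eq_pow_of_pow_mem hr hr'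
    obtain rfl : p = r := (Nat.prime_dvd_prime_iff_eq hp.out hr).1
      (hp.out.dvd_of_dvd_pow (hj ▸ h3 ▸ hpe.pow two_ne_zero))
    let V := K.map (QuotientGroup.mk' L)
    haveI : V.Normal := Normal.map inferInstance _ (QuotientGroup.mk'_surjective L)
    let Φ : G →* MulAut V := MulAut.conjNormal.comp (QuotientGroup.mk' L)
    have hΦ : ∀ x (v : V), (Φ x v : G ⧸ L) = x * v * (x : G ⧸ L)⁻¹ := fun _ _ => rfl
    have hcV : e ^ 2 = Nat.card V := by rw [H3.card_map_mk'_eq_relIndex, h3]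
    have hpV : ∀ v : V, v ^ p = 1 := by
      rintro ⟨_, k, hk, rfl⟩
      exact Subtype.ext ((QuotientGroup.eq_one_iff _).2 (hr' k hk))
    have hVp : IsPGroup p V := fun v => ⟨1, by simpa using hpV v⟩
    have hirr : ∀ W : Subgroup V, (∀ x, ∀ w ∈ W, Φ x w ∈ W) → W = ⊥ ∨ W = ⊤ := fun W hW => by
      have hn : ((W.map V.subtype).comap (QuotientGroup.mk' L)).Normal := ⟨by
        rintro y ⟨w, hw, e⟩ x
        exact ⟨Φ x w, hW x w hw, by rw [coe_subtype, hΦ, show (w : G ⧸ L) = y from e]; rfl⟩⟩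
      rcases hL.eq_or_eq _ hn (QuotientGroup.le_comap_mk' L _) (by
        refine (comap_mono (map_subtype_le W)).trans ?_
        rw [comap_map_eq, QuotientGroup.ker_mk', sup_of_le_left hLK]) with h | h
      · refine Or.inl (eq_bot_iff.2 ?_)
        rintro ⟨_, k, hk, rfl⟩ hw
        exact Subtype.ext ((QuotientGroup.eq_one_iff _).2 (h.le ⟨_, hw, rfl⟩))
      · refine Or.inr (eq_top_iff.2 ?_)
        rintro ⟨_, k, hk, rfl⟩ -
        obtain ⟨w, hw, e⟩ := h.ge hk
        rwa [show w = ⟨_, k, hk, rfl⟩ from Subtype.ext e] at hw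
    have hF : fittingSubgroup G ≤ Φ.ker := by
      refine (H1.fitting_le_pCore_sup_pPrimeCore p).trans (sup_le ?_ ?_)
      · refine le_ker_of_pgroup hVp Φ hirr _ fun y hy => ?_
        obtain ⟨k, hk⟩ := H1.isPGroup_pCore (p := p) (⟨y, hy⟩ : pCore p G)
        exact ⟨k, by rw [← map_pow, show y ^ p ^ k = 1 from congrArg Subtype.val hk, map_one]⟩
      · intro y hy
        refine MulEquiv.ext ?_
        rintro ⟨_, k, hk, rfl⟩
        have e1 : y * k * y⁻¹ * k⁻¹ ∈ pPrimeCore p G := by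
          have := mul_mem hy ((inferInstance : (pPrimeCore p G).Normal).conj_mem _ (inv_mem hy) k)
          simpa only [mul_assoc] using this
        have e2 : y * k * y⁻¹ * k⁻¹ ∈ K :=
          mul_mem ((inferInstance : K.Normal).conj_mem _ hk y) (inv_mem hk)
        have e3 : ((y * k * y⁻¹ * k⁻¹ : G) : G ⧸ L) = 1 := by
          rw [← orderOf_eq_one_iff]
          refine Nat.eq_one_of_dvd_coprimes (H1.coprime_orderOf_of_mem_pPrimeCore e1)
            (orderOf_map_dvd (QuotientGroup.mk' L) _) (orderOf_dvd_of_pow_eq_one ?_)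
          exact (QuotientGroup.eq_one_iff _).2 (hr' _ e2)
        refine Subtype.ext ?_
        rw [hΦ]
        exact mul_inv_eq_one.1 e3
    have hDk : D ≤ Φ.ker := le_ker_of_pgroup hVp Φ hirr D fun y hy => by
      obtain ⟨k, hk⟩ := hD y hy
      exact ⟨k, by rw [← map_pow]; exact hF hk⟩
    have fp := sum_index_ge hVp hcV _ (fps_solv (by
      rintro ⟨_, a, ha, rfl⟩ ⟨_, b, hb, rfl⟩
      refine Subtype.ext (commutatorElement_eq_one_iff_mul_comm.1 ?_)
      exact (QuotientGroup.eq_one_iff ⁅a, b⁆).2 (hab (commutator_mem_commutator ha hb))) hpV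
      (fun h => hp.out.prime.not_isSquare ⟨e, by rw [← h, ← hcV, sq]⟩) Φ hirr)
    refine ⟨fun x => ψ x + (fixE (Φ x).toMonoidHom).index.factorization p, fun x => ?_, ?_,
      fun x y hy => ?_⟩
    · refine (Nat.add_le_add_right (a1 x) _).trans ?_
      rw [← Finsupp.add_apply, relIndex, ← Nat.factorization_mul index_ne_zero_of_finite
        index_ne_zero_of_finite]
      refine (Nat.factorization_le_iff_dvd (mul_ne_zero index_ne_zero_of_finite
        index_ne_zero_of_finite) index_ne_zero_of_finite).2 ?_ p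
      refine relIndex_mul_index_dvd hLK ((QuotientGroup.mk' L).subgroupMap_surjective K) ?_ ?_
      · ext k
        exact Subtype.ext_iff.trans (QuotientGroup.eq_one_iff _)
      · rintro _ ⟨k, hk, rfl⟩
        refine Subtype.ext ?_
        have : x * k = k * x := mem_centralizer_iff.1 hk x rfl
        show ((x * k * x⁻¹ : G) : G ⧸ L) = (k : G)
        rw [this, mul_inv_cancel_right]
    · rw [Finset.sum_add_distrib]
      omega
    · simp only [a3 x y hy, map_mul, show Φ y = 1 from hDk hy, mul_one]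
  · exfalso
    have h4 : 1 < F.card := h2 ▸ one_lt_index_of_ne_top fun h => hL.lt.not_ge (subgroupOf_eq_top.1 h)
    obtain ⟨φ, a1, φ', a2, a3⟩ := Finset.one_lt_card.1 h4
    letI := Fintype.ofFinite L
    have key : ∀ φ ∈ F, Over L χ φ := fun φ hφ => tr (h1 φ hφ) (ov_iff.2 (by
      rw [show (fun l => θ (inclusion hLK l)) = ∑ φ ∈ F, φ from h3, H6.classInner_sum_left,
        Finset.sum_eq_single_of_mem φ hφ fun η b1 b2 => H6.irr_inner_ne (h1 η b1) (h1 φ hφ) b2,
        H6.irr_inner_self (h1 φ hφ)]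
      exact one_ne_zero))
    obtain ⟨e, -, -, b⟩ := (key φ a1).res_eq_of_invariant hχ (h1 φ a1)
      (inertia_eq_top_of_prim hχ hprim (h1 φ a1) (key φ a1))
    exact a3 (Ov.eq_of_eq_mul (j := L.subtype) (h1 φ a1) (h1 φ' a2) b (key φ' a2)).symm

theorem exists_prim_class [Group.IsSolvable G] {χ : G → ℂ} (hχ : IsIrrCharacter G χ)
    (hprim : ¬ ∃ H : Subgroup G, H ≠ ⊤ ∧ ∃ θ : H → ℂ, IsCharacter H θ ∧ indFun H θ = χ)
    (p : ℕ) [hp : Fact p.Prime] (D : Subgroup G) [D.Normal]
    (hD : ∀ y ∈ D, ∃ k, y ^ p ^ k ∈ fittingSubgroup G) :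
    ∃ g : G, ∀ y ∈ D, (charDegree χ).factorization p ≤
      (centralizer ({g * y} : Set G)).index.factorization p := by
  have h1 : IsIrrCharacter (⊤ : Subgroup G) fun x => χ x :=
    isIrr_res_of_coprime ⊤ hχ (by rw [index_top]; exact Nat.coprime_one_right _)
  obtain ⟨ψ, a1, a2, a3⟩ := prim_aux hχ hprim p D hD _ ⊤ rfl _ h1 (over_of_eq h1 fun _ => rfl)
  rw [deg_res, Nat.card_eq_fintype_card, ← Finset.card_univ, ← smul_eq_mul,
    ← Finset.sum_const] at a2
  obtain ⟨g, -, hg⟩ := Finset.exists_le_of_sum_le Finset.univ_nonempty a2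
  refine ⟨g, fun y hy => hg.trans ?_⟩
  rw [← a3 g y hy, ← relIndex_top_right]
  exact a1 _

end H85
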