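import Mathlib
import Cfsg.Agent.Lib.FGS.HHGross
import Cfsg.Agent.Lib.BG47.MinAct

/-! The lower `p`-series and the tower `A, P, Q` in a solvable group of large `p`-length. -/

set_option autoImplicit false
set_option linter.unusedSectionVars false
set_option linter.style.haveILetI false

namespace H85.TL

open Cfsg Subgroup H76
open scoped commutatorElement

variable {G : Type*} [Group G] {G' : Type*} [Group G'] {p : ℕ}

/-- `O^{p'}(H)`. -/
def oP (p : ℕ) (H : Subgroup G) : Subgroup G := closure {x | x ∈ H ∧ ∃ k : ℕ, x ^ p ^ k = 1}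

/-- `O^p(H)`. -/
def oQ (p : ℕ) (H : Subgroup G) : Subgroup G := closure {x | x ∈ H ∧ (orderOf x).Coprime p}

/-- The lower `p`-series `O^{p',(p,p')^k}(H)`. -/
def Lo (p : ℕ) : ℕ → Subgroup G → Subgroup G
  | 0, H => oP p H
  | k + 1, H => oP p (oQ p (Lo p k H))

theorem oP_le (H : Subgroup G) : oP p H ≤ H := (closure_le _).2 fun _ h => h.1

theorem oQ_le (H : Subgroup G) : oQ p H ≤ H := (closure_le _).2 fun _ h => h.1

theorem oP_mono {H K : Subgroup G} (h : H ≤ K) : oP p H ≤ oP p K :=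
  closure_mono fun _ hx => ⟨h hx.1, hx.2⟩

theorem oQ_mono {H K : Subgroup G} (h : H ≤ K) : oQ p H ≤ oQ p K :=
  closure_mono fun _ hx => ⟨h hx.1, hx.2⟩

theorem mem_oP {H : Subgroup G} {x : G} (hx : x ∈ H) {k : ℕ} (h : x ^ p ^ k = 1) : x ∈ oP p H :=
  subset_closure ⟨hx, k, h⟩

theorem mem_oQ {H : Subgroup G} {x : G} (hx : x ∈ H) (h : (orderOf x).Coprime p) : x ∈ oQ p H :=
  subset_closure ⟨hx, h⟩

theorem le_oP {H P : Subgroup G} (hP : IsPGroup p P) (h : P ≤ H) : P ≤ oP p H := fun x hx => by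
  obtain ⟨k, hk⟩ := H68.isPGroup_iff_forall.1 hP x hx
  exact mem_oP (h hx) hk

theorem oP_le_of {H T : Subgroup G} (h : ∀ x ∈ oP p H, ∀ k : ℕ, x ^ p ^ k = 1 → x ∈ T) :
    oP p H ≤ T := (closure_le _).2 fun x hx => by
  obtain ⟨h1, k, hk⟩ := hx
  exact h x (mem_oP h1 hk) k hk

theorem oQ_le_of {H T : Subgroup G} (h : ∀ x ∈ oQ p H, (orderOf x).Coprime p → x ∈ T) :
    oQ p H ≤ T := (closure_le _).2 fun x hx => h x (mem_oQ hx.1 hx.2) hx.2

theorem Lo_le (k : ℕ) (H : Subgroup G) : Lo p k H ≤ H := by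
  induction k with
  | zero => exact oP_le H
  | succ k ih => exact (oP_le _).trans ((oQ_le _).trans ih)

theorem Lo_mono (k : ℕ) {H K : Subgroup G} (h : H ≤ K) : Lo p k H ≤ Lo p k K := by
  induction k with
  | zero => exact oP_mono h
  | succ k ih => exact oP_mono (oQ_mono ih)

theorem Lo_le_of {k : ℕ} {H T : Subgroup G}
    (h : ∀ x ∈ Lo p k H, ∀ l : ℕ, x ^ p ^ l = 1 → x ∈ T) : Lo p k H ≤ T := by
  cases k with
  | zero => exact oP_le_of h
  | succ k => exact oP_le_of h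

theorem norm_oP {H N : Subgroup G} (h : N ≤ normalizer (H : Set G)) :
    N ≤ normalizer (oP p H : Set G) := H68.le_normalizer_of_forall_cj_le fun g hg => by
  rw [oP, H68.cj, MonoidHom.map_closure, closure_le]
  rintro _ ⟨x, ⟨hx, k, hk⟩, rfl⟩
  refine subset_closure ⟨H68.conj_mem_of_mem_normalizer (h hg) hx, k, ?_⟩
  rw [← map_pow, hk, map_one]

theorem norm_oQ {H N : Subgroup G} (h : N ≤ normalizer (H : Set G)) :
    N ≤ normalizer (oQ p H : Set G) := H68.le_normalizer_of_forall_cj_le fun g hg => by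
  rw [oQ, H68.cj, MonoidHom.map_closure, closure_le]
  rintro _ ⟨x, ⟨hx, hk⟩, rfl⟩
  refine subset_closure ⟨H68.conj_mem_of_mem_normalizer (h hg) hx, ?_⟩
  exact hk.coprime_dvd_left (orderOf_map_dvd _ _)

theorem norm_Lo (k : ℕ) {H N : Subgroup G} (h : N ≤ normalizer (H : Set G)) :
    N ≤ normalizer (Lo p k H : Set G) := by
  induction k with
  | zero => exact norm_oP h
  | succ k ih => exact norm_oP (norm_oQ ih)

theorem map_oP_le (f : G →* G') (H : Subgroup G) : (oP p H).map f ≤ oP p (H.map f) := by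
  rw [oP, MonoidHom.map_closure, closure_le]
  rintro _ ⟨x, ⟨hx, k, hk⟩, rfl⟩
  exact subset_closure ⟨⟨x, hx, rfl⟩, k, by rw [← map_pow, hk, map_one]⟩

theorem map_oQ_le (f : G →* G') (H : Subgroup G) : (oQ p H).map f ≤ oQ p (H.map f) := by
  rw [oQ, MonoidHom.map_closure, closure_le]
  rintro _ ⟨x, ⟨hx, hk⟩, rfl⟩
  exact subset_closure ⟨⟨x, hx, rfl⟩, hk.coprime_dvd_left (orderOf_map_dvd _ _)⟩

theorem map_Lo_le (f : G →* G') (k : ℕ) (H : Subgroup G) :
    (Lo p k H).map f ≤ Lo p k (H.map f) := by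
  induction k with
  | zero => exact map_oP_le f H
  | succ k ih => exact (map_oP_le f _).trans (oP_mono ((map_oQ_le f _).trans (oQ_mono ih)))

theorem oP_subtype (K : Subgroup G) (H : Subgroup K) :
    oP p (H.map K.subtype) ≤ (oP p H).map K.subtype := (closure_le _).2 (by
  rintro _ ⟨⟨x, hx, rfl⟩, k, hk⟩
  exact ⟨x, mem_oP hx (k := k) (Subtype.ext (by simpa using hk)), rfl⟩)

theorem oQ_subtype (K : Subgroup G) (H : Subgroup K) :
    oQ p (H.map K.subtype) ≤ (oQ p H).map K.subtype := (closure_le _).2 (by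
  rintro _ ⟨⟨x, hx, rfl⟩, hk⟩
  exact ⟨x, mem_oQ hx (by simpa using hk), rfl⟩)

theorem Lo_subtype (K : Subgroup G) (k : ℕ) (H : Subgroup K) :
    Lo p k (H.map K.subtype) ≤ (Lo p k H).map K.subtype := by
  induction k with
  | zero => exact oP_subtype K H
  | succ k ih =>
    exact (oP_mono ((oQ_mono ih).trans (oQ_subtype K _))).trans (oP_subtype K _)

theorem exists_mul_pow {N : Subgroup G} {n y : G} (hn : n ∈ N) (hy : y ∈ normalizer (N : Set G))
    (m : ℕ) : ∃ n' ∈ N, (n * y) ^ m = n' * y ^ m := by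
  induction m with
  | zero => exact ⟨1, one_mem _, by simp⟩
  | succ m ih =>
    obtain ⟨n', hn', h⟩ := ih
    refine ⟨n' * (y ^ m * n * (y ^ m)⁻¹),
      mul_mem hn' (H68.conj_mem_of_mem_normalizer (pow_mem hy m) hn), ?_⟩
    rw [pow_succ, h, pow_succ]
    group

variable [Finite G] [hp : Fact p.Prime]

theorem oP_le_iff {H N : Subgroup G} : oP p H ≤ N ↔ RelQ p N H := by
  constructor
  · intro h x hx
    obtain ⟨k, m, hm, h1⟩ :=
      Nat.exists_eq_pow_mul_and_not_dvd (orderOf_pos x).ne' p hp.out.one_lt.ne'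
    refine ⟨m, ((Nat.Prime.coprime_iff_not_dvd hp.out).2 hm).symm, h (mem_oP (pow_mem hx m)
      (k := k) ?_)⟩
    rw [← pow_mul, mul_comm, ← h1, pow_orderOf_eq_one]
  · intro h
    refine (closure_le _).2 ?_
    rintro x ⟨hx, k, hk⟩
    obtain ⟨m, hm, h1⟩ := h x hx
    exact mem_of_pow_mem_of_coprime (hm.pow_right k) h1 (hk ▸ one_mem _)

theorem oQ_le_iff {H N : Subgroup G} : oQ p H ≤ N ↔ RelP p N H := by
  constructor
  · intro h x hx
    obtain ⟨k, hk⟩ := exists_pow_coprime p x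
    exact ⟨k, h (mem_oQ (pow_mem hx _) hk)⟩
  · intro h
    refine (closure_le _).2 ?_
    rintro x ⟨hx, hk⟩
    obtain ⟨k, h1⟩ := h x hx
    exact mem_of_pow_mem_of_coprime (hk.pow_right k) ((pow_orderOf_eq_one x) ▸ one_mem _) h1

theorem oP_cover {X X' N : Subgroup G} (hX : X ≤ N ⊔ X') (hN : X' ≤ normalizer (N : Set G)) :
    oP p X ≤ N ⊔ oP p X' := oP_le_iff.2 fun x hx => by
  obtain ⟨n, hn, y, hy, rfl⟩ := (H68.mem_sup_of_le_normalizer' hN).1 (hX hx)
  obtain ⟨m, hm, h⟩ := oP_le_iff.1 (le_refl (oP p X')) y hy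
  obtain ⟨n', hn', h'⟩ := exists_mul_pow hn (hN hy) m
  exact ⟨m, hm, h' ▸ mul_mem (mem_sup_left hn') (mem_sup_right h)⟩

theorem oQ_cover {X X' N : Subgroup G} (hX : X ≤ N ⊔ X') (hN : X' ≤ normalizer (N : Set G)) :
    oQ p X ≤ N ⊔ oQ p X' := oQ_le_iff.2 fun x hx => by
  obtain ⟨n, hn, y, hy, rfl⟩ := (H68.mem_sup_of_le_normalizer' hN).1 (hX hx)
  obtain ⟨m, h⟩ := oQ_le_iff.1 (le_refl (oQ p X')) y hy
  obtain ⟨n', hn', h'⟩ := exists_mul_pow hn (hN hy) (p ^ m)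
  exact ⟨m, h' ▸ mul_mem (mem_sup_left hn') (mem_sup_right h)⟩

theorem Lo_cover (k : ℕ) {X X' N : Subgroup G} (hX : X ≤ N ⊔ X')
    (hN : X' ≤ normalizer (N : Set G)) : Lo p k X ≤ N ⊔ Lo p k X' := by
  induction k with
  | zero => exact oP_cover hX hN
  | succ k ih =>
    exact oP_cover (oQ_cover ih ((Lo_le k _).trans hN))
      ((oQ_le _).trans ((Lo_le k _).trans hN))

theorem normal_of_top {H : Subgroup G} (h : ⊤ ≤ normalizer (H : Set G)) : H.Normal :=
  normalizer_eq_top_iff.1 (top_le_iff.1 h)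

theorem normal_Lo (k : ℕ) : (Lo p k (⊤ : Subgroup G)).Normal :=
  normal_of_top (norm_Lo k le_normalizer)

theorem Lo_le_ups (k : ℕ) : ∀ j : ℕ, Lo p k (⊤ : Subgroup G) ≤ ups p G (2 * j) ↔
    ups p G (2 * (k + j) + 1) = ⊤ := by
  induction k with
  | zero =>
    intro j
    rw [Lo, oP_le_iff, ← le_ups_odd_iff, zero_add, top_le_iff]
  | succ k ih =>
    intro j
    have := normal_Lo (G := G) (p := p) k
    have : (oQ p (Lo p k (⊤ : Subgroup G))).Normal :=
      normal_of_top (norm_oQ (norm_Lo k le_normalizer))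
    rw [Lo, oP_le_iff, ← le_ups_odd_iff, oQ_le_iff, ← le_ups_even_iff,
      show 2 * j + 2 = 2 * (j + 1) by ring, ih, show k + (j + 1) = k + 1 + j by ring]

theorem pLengthLE_iff_Lo {k : ℕ} : PLengthLE p k G ↔ Lo p k (⊤ : Subgroup G) = ⊥ := by
  have := Lo_le_ups (G := G) (p := p) k 0
  rw [mul_zero, ups_zero, le_bot_iff, add_zero] at this
  exact this.symm

theorem not_pLengthLE_of_le_Lo [Finite G'] {K P : Subgroup G} {k : ℕ} (h : P ≤ Lo p k K)
    (f : K →* G') (hf : ¬ P.subgroupOf K ≤ f.ker) : ¬ PLengthLE p k G' := by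
  intro h1
  apply hf
  intro x hx
  have h2 : (x : G) ∈ Lo p k ((⊤ : Subgroup K).map K.subtype) := by
    rw [← MonoidHom.range_eq_map, range_subtype]
    exact h hx
  obtain ⟨y, hy, hyx⟩ := Lo_subtype K k ⊤ h2
  obtain rfl : y = x := Subtype.ext hyx
  have h3 := Lo_mono k (le_top (a := (⊤ : Subgroup K).map f)) (map_Lo_le f k ⊤ ⟨y, hy, rfl⟩)
  rw [pLengthLE_iff_Lo.1 h1] at h3
  exact mem_bot.1 h3

theorem step1 {k : ℕ} (h1 : Lo p (k + 1) (⊤ : Subgroup G) = ⊥)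
    (h2 : Lo p k (⊤ : Subgroup G) ≠ ⊥) :
    ∃ K P : Subgroup G, IsPGroup p P ∧ P ≠ ⊥ ∧ Lo p k K = P := by
  set L := Lo p k (⊤ : Subgroup G) with hL
  set M := oQ p L with hM
  have hLn : L.Normal := normal_Lo k
  have hMn : M.Normal := normal_of_top (norm_oQ (norm_Lo k le_normalizer))
  obtain ⟨P, hP⟩ := H68.exists_sylowIn p L
  have hMP : P ⊓ M = ⊥ := by
    rw [eq_bot_iff, ← h1]
    exact le_oP hP.isPGroup.to_inf_left inf_le_right
  have hLP : L ≤ M ⊔ P := by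
    intro x hx
    have h3 := hP.map (QuotientGroup.mk' M)
    have h4 : IsPGroup p (L.map (QuotientGroup.mk' M)) := by
      rw [← relP_ker_iff, QuotientGroup.ker_mk']
      exact oQ_le_iff.1 le_rfl
    have h5 := h3.eq_of_le h4 h3.le le_rfl
    obtain ⟨y, hy, hyx⟩ : QuotientGroup.mk' M x ∈ P.map (QuotientGroup.mk' M) :=
      h5 ▸ ⟨x, hx, rfl⟩
    have h6 : x * y⁻¹ ∈ M := by
      rw [← QuotientGroup.ker_mk' M, MonoidHom.mem_ker, map_mul, map_inv, hyx, mul_inv_cancel]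
    simpa using mul_mem (mem_sup_left (T := P) h6) (mem_sup_right (S := M) hy)
  have hK : (⊤ : Subgroup G) ≤ M ⊔ normalizer (P : Set G) := by
    intro g _
    obtain ⟨n, hn, x, hx, rfl⟩ := hP.frattini (g := g) (le_normalizer_of_normal (mem_top g))
    exact mul_mem (sup_le_sup_left le_normalizer M (hLP hn)) (mem_sup_right hx)
  have h7 : Lo p k (normalizer (P : Set G)) ≤ P := Lo_le_of fun x hx l hl =>
    hP.le_of_normalizes (H68.isPGroup_zpowers hl) (zpowers_le.2 (Lo_mono k le_top hx))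
      (zpowers_le.2 (Lo_le k _ hx)) (mem_zpowers x)
  have h8 : L ≤ M ⊔ Lo p k (normalizer (P : Set G)) := Lo_cover k hK le_normalizer_of_normal
  refine ⟨normalizer (P : Set G), P, hP.isPGroup, fun h => h2 ?_, le_antisymm h7 fun x hx => ?_⟩
  · rw [eq_bot_iff]
    refine Lo_le_of fun x hx l hl => ?_
    obtain ⟨g, -, hg⟩ := hP.exists_cj_le (H68.isPGroup_zpowers hl) (zpowers_le.2 hx)
    rw [h, le_bot_iff, H68.cj_eq_bot_iff] at hg
    exact hg ▸ mem_zpowers x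
  · obtain ⟨m, hm, y, hy, rfl⟩ := (H68.mem_sup_of_le_normalizer'
      (le_normalizer_of_normal (H := M))).1 (h8 (hP.le hx))
    have : m ∈ P ⊓ M := ⟨by simpa using mul_mem hx (inv_mem (h7 hy)), hm⟩
    rw [hMP, mem_bot] at this
    simpa [this] using hy

theorem step2 {k : ℕ} {K P₁ : Subgroup G} (hP : IsPGroup p P₁) (h0 : P₁ ≠ ⊥)
    (h : Lo p (k + 1) K = P₁) :
    ∃ B A P : Subgroup G, H47.MinAct p B A P ∧ ⁅P, P⁆ ≤ B ∧ P ⊓ B ≤ ⁅P, P⁆ ∧
      P ≤ Lo p (k + 1) (P ⊔ B) := by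
  set L := oQ p (Lo p k K) with hL
  have hKL : K ≤ normalizer (L : Set G) := norm_oQ (norm_Lo k le_normalizer)
  have hKP : K ≤ normalizer (P₁ : Set G) := h ▸ norm_Lo (k + 1) le_normalizer
  have hLK : L ≤ K := (oQ_le _).trans (Lo_le k K)
  have hPL : P₁ ≤ L := h ▸ oP_le _
  have hS : H68.SylowIn p P₁ L := ⟨hPL, hP, fun Q hQ h1 h2 =>
    le_antisymm (h ▸ le_oP hQ h2) h1⟩
  have hcop : (P₁.relIndex L).Coprime p :=
    ((Nat.Prime.coprime_iff_not_dvd hp.out).2 hS.not_dvd_relIndex).symm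
  obtain ⟨n, hn⟩ := hP.exists_card_eq
  obtain ⟨A, hAL, hsup, hinf, hcard⟩ := H3.exists_complement_in hPL (hLK.trans hKP)
    (by rw [hn]; exact (hcop.pow_right n).symm)
  have hAp : (Nat.card A).Coprime p := hcard ▸ hcop
  have hAP : A ≤ normalizer (P₁ : Set G) := hAL.trans (hLK.trans hKP)
  have hAc : (Nat.card A).Coprime (Nat.card P₁) := H2.coprime_card_of_isPGroup hAp hP
  set B := K ⊓ normalizer (A : Set G) with hB
  have hKB : K ≤ P₁ ⊔ B := by
    intro g hg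
    obtain ⟨m, hm, hgm⟩ := H2.exists_mul_mem_normalizer hAP hAc
      (Or.inr (H1.isSolvable_of_isPGroup hP)) (g := g) fun a ha => by
        rw [hsup]
        exact H68.conj_mem_of_mem_normalizer' (hKL hg) (hAL ha)
    have h1 : g * m ∈ B := ⟨mul_mem hg (hLK (hPL hm)), hgm⟩
    simpa using mul_mem (mem_sup_right (S := P₁) h1) (mem_sup_left (T := B) (P₁.inv_mem hm))
  have hcent : ∀ c ∈ P₁, c ∈ normalizer (A : Set G) → c ∈ centralizer (A : Set G) := by
    intro c hc hcn a ha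
    have h1 : ⁅c, a⁆ ∈ P₁ ⊓ A := ⟨commutator_mem_of_le_normalizer hc (hAP ha),
      A.mul_mem (H68.conj_mem_of_mem_normalizer hcn ha) (A.inv_mem ha)⟩
    rw [hinf, mem_bot] at h1
    exact (commutatorElement_eq_one_iff_mul_comm.1 h1).symm
  have hkey : ∀ x ∈ L, x ∈ normalizer (A : Set G) → (orderOf x).Coprime p → x ∈ A := by
    intro x hx hxn hxo
    rw [← hsup] at hx
    obtain ⟨c, hc, a, ha, rfl⟩ := (H68.mem_sup_of_le_normalizer' hAP).1 hx
    have hcn : c ∈ normalizer (A : Set G) := by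
      simpa using mul_mem hxn ((normalizer (A : Set G)).inv_mem (le_normalizer ha))
    have hca : Commute c a := (hcent c hc hcn a ha).symm
    have h1 := pow_orderOf_eq_one (c * a)
    rw [hca.mul_pow, mul_eq_one_iff_eq_inv] at h1
    have h2 : c ^ orderOf (c * a) ∈ P₁ ⊓ A := ⟨pow_mem hc _, h1 ▸ A.inv_mem (A.pow_mem ha _)⟩
    rw [hinf] at h2
    obtain ⟨l, hl⟩ := H68.isPGroup_iff_forall.1 hP c hc
    have h3 : c ∈ (⊥ : Subgroup G) :=
      mem_of_pow_mem_of_coprime (hxo.pow_right l) h2 (hl ▸ one_mem _)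
    rw [mem_bot.1 h3, one_mul]
    exact ha
  have hBP : B ≤ normalizer (P₁ : Set G) := inf_le_left.trans hKP
  have hA' : oQ p (Lo p k B) ≤ A := oQ_le_of fun x hx hxo =>
    hkey x (oQ_mono (Lo_mono k inf_le_left) hx) (Lo_le k B (oQ_le _ hx)).2 hxo
  have hA : A ≤ oQ p (Lo p k B) := by
    intro a ha
    have h1 : L ≤ P₁ ⊔ oQ p (Lo p k B) :=
      oQ_cover (Lo_cover k hKB hBP) ((Lo_le k B).trans hBP)
    obtain ⟨c, hc, y, hy, rfl⟩ := (H68.mem_sup_of_le_normalizer'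
      ((oQ_le _).trans ((Lo_le k B).trans hBP))).1 (h1 (hAL ha))
    have : c ∈ P₁ ⊓ A := ⟨hc, by simpa using mul_mem ha (inv_mem (hA' hy))⟩
    rw [hinf, mem_bot] at this
    simpa [this] using hy
  have hnt : ⁅P₁, A⁆ ≠ ⊥ := by
    intro h1
    have h2 : L ≤ normalizer (A : Set G) := by
      rw [← hsup]
      exact sup_le ((commutator_eq_bot_iff_le_centralizer.1 h1).trans
        (centralizer_le_normalizer _)) le_normalizer
    have h3 : L ≤ A := oQ_le_of fun x hx hxo => hkey x hx (h2 hx) hxo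
    exact h0 (by rw [← hinf, inf_eq_left.2 (hPL.trans h3)])
  obtain ⟨P, hPP, hM⟩ := H47.exists_minAct (B := B) (A := A) hP hBP
    (le_inf (hAL.trans hLK) le_normalizer) inf_le_right hAp hnt
  refine ⟨B, A, P, hM, le_inf (hM.commutator_lt.le.trans (hPP.trans (hPL.trans hLK)))
    (hM.commutator_le_centralizer.trans (centralizer_le_normalizer _)),
    fun x hx => hM.inf_centralizer_le ⟨hx.1, hcent x (hPP hx.1) hx.2.2⟩, le_oP hM.pgrp ?_⟩
  have h1 : A ≤ oQ p (Lo p k (P ⊔ B)) := hA.trans (oQ_mono (Lo_mono k le_sup_right))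
  have h2 : P ≤ normalizer (oQ p (Lo p k (P ⊔ B)) : Set G) :=
    le_sup_left.trans (norm_oQ (norm_Lo k le_normalizer))
  refine hM.commutator_eq.ge.trans ?_
  rw [commutator_comm]
  exact (commutator_mono h1 le_rfl).trans (H2.commutator_le_of_le_normalizer h2)

theorem step3 (hs : Group.IsSolvable G) (hO : pCore p G = ⊥) {K P : Subgroup G}
    (hP : IsPGroup p P) (h0 : P ≠ ⊥) (hPK : P ≤ K) (hK : K ≤ normalizer (P : Set G)) :
    ∃ (q : ℕ) (_ : Fact q.Prime) (Q : Subgroup G), q ≠ p ∧ H47.MinAct q K P Q := by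
  by_contra hcon
  apply h0
  rw [eq_bot_iff, ← hO]
  refine H1.le_pCore_of_le_fitting hP (le_trans ?_ H1.centralizer_fitting_le)
  rw [le_centralizer_iff, H1.fitting_eq_iSup_pCore]
  refine iSup_le fun q => ?_
  have : Fact (q : ℕ).Prime := ⟨q.2⟩
  by_cases hq : (q : ℕ) = p
  · rw [hq, hO]; exact bot_le
  by_contra h1
  obtain ⟨n, hn⟩ := hP.exists_card_eq
  obtain ⟨Q, -, hQ⟩ := H47.exists_minAct (B := K) (A := P) (K := pCore q G) H1.isPGroup_pCore
    le_normalizer_of_normal hPK hK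
    (by rw [hn]; exact ((Nat.coprime_primes hp.out q.2).2 (Ne.symm hq)).pow_left n)
    fun h2 => h1 (commutator_eq_bot_iff_le_centralizer.1 h2)
  exact hcon ⟨q, this, Q, hq, hQ⟩

/-- The tower: `A` acts minimally on `P`, and `P` acts minimally on `Q`. -/
theorem exists_tower (hs : Group.IsSolvable G) (hO : pCore p G = ⊥) {k : ℕ}
    (h1 : PLengthLE p (k + 2) G) (h2 : ¬ PLengthLE p (k + 1) G) :
    ∃ (q : ℕ) (_ : Fact q.Prime) (B A P Q : Subgroup G), q ≠ p ∧ H47.MinAct p B A P ∧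
      H47.MinAct q (P ⊔ B) P Q ∧ ⁅P, P⁆ ≤ B ∧ P ⊓ B ≤ ⁅P, P⁆ ∧ P ≤ Lo p (k + 1) (P ⊔ B) := by
  rw [pLengthLE_iff_Lo] at h1 h2
  obtain ⟨K, P₁, h3, h4, h5⟩ := step1 h1 h2
  obtain ⟨B, A, P, h6, h7, h8, h9⟩ := step2 h3 h4 h5
  obtain ⟨q, _, Q, hq, hQ⟩ := step3 hs hO h6.pgrp h6.ne_bot (le_sup_left (b := B))
    (sup_le le_normalizer h6.hBP)
  exact ⟨q, inferInstance, B, A, P, Q, hq, h6, hQ, h7, h8, h9⟩

end H85.TL
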