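import Mathlib
import Cfsg.Agent.Lib.FGS.Special
import Cfsg.Agent.Lib.Core.HallSZ

/-! `2`-groups of isometries of a symplectic group containing an exceptional element. -/

set_option autoImplicit false
set_option linter.unusedSectionVars false
set_option linter.style.haveILetI false

namespace H85.TL

open Subgroup H76
open scoped commutatorElement

/-- A non-degenerate alternating form on an abelian group. -/
structure Frm (S C : Type*) [CommGroup S] [Group C] where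
  ω : S → S → C
  mul_left : ∀ s s' t, ω (s * s') t = ω s t * ω s' t
  swap : ∀ s t, ω t s = (ω s t)⁻¹
  self : ∀ s, ω s s = 1
  nondeg : ∀ s, (∀ t, ω s t = 1) → s = 1

variable {S C : Type*} [CommGroup S] [Group C]

/-- The map `s ↦ s * t s`. -/
def sHom (t : MulAut S) : S →* S where
  toFun s := s * t s
  map_one' := by simp
  map_mul' s s' := by rw [map_mul, mul_mul_mul_comm]

theorem mem_ker_sHom {t : MulAut S} {s : S} : s ∈ (sHom t).ker ↔ t s = s⁻¹ := by
  change s * t s = 1 ↔ _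
  rw [mul_eq_one_iff_eq_inv', eq_comm]

theorem mem_ker_dHom {t : MulAut S} {s : S} : s ∈ (dHom t).ker ↔ t s = s := dHom_eq_one

namespace Frm

variable (f : Frm S C)

/-- The form as a homomorphism in the first variable. -/
def left (t : S) : S →* C := MonoidHom.mk' (fun s => f.ω s t) fun s s' => f.mul_left s s' t

theorem left_apply (s t : S) : f.left t s = f.ω s t := rfl

theorem mul_right (s t t' : S) : f.ω s (t * t') = f.ω s t * f.ω s t' := by
  rw [f.swap, mul_comm, f.mul_left, mul_inv_rev, ← f.swap, ← f.swap]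

theorem inv_left (s t : S) : f.ω s⁻¹ t = (f.ω s t)⁻¹ := map_inv (f.left t) s

theorem inv_right (s t : S) : f.ω s t⁻¹ = (f.ω s t)⁻¹ := by
  rw [f.swap, f.inv_left, ← f.swap]

/-- The isometries. -/
def aut : Subgroup (MulAut S) where
  carrier := {g | ∀ s t, f.ω (g s) (g t) = f.ω s t}
  one_mem' := fun _ _ => rfl
  mul_mem' := fun {a b} ha hb s t => by
    rw [MulAut.mul_apply, MulAut.mul_apply, ha, hb]
  inv_mem' := fun {a} ha s t => by
    rw [← ha, MulAut.apply_inv_self, MulAut.apply_inv_self]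

variable {f}

theorem orth_fix {g : MulAut S} (hg : g ∈ f.aut) {u w : S} (hu : u ∈ cU g) (hw : g w = w) :
    f.ω u w = 1 := by
  obtain ⟨s, rfl⟩ := hu
  rw [dHom_apply, f.mul_left, f.inv_left]
  conv_lhs => rw [← hg s w, hw]
  exact inv_mul_cancel _

variable [Finite S]

theorem nondeg_cU {g : MulAut S} (hg : g ∈ f.aut) {n : ℕ} (hn : n.Coprime (Nat.card S))
    (hgn : g ^ n = 1) {u : S} (hu : u ∈ cU g) (h : ∀ v ∈ cU g, f.ω u v = 1) : u = 1 :=
  f.nondeg u fun s => by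
    obtain ⟨v, hv, w, hw, rfl⟩ := exists_mul_fix hn hgn s
    rw [f.mul_right, h v hv, orth_fix hg hu hw, mul_one]

end Frm

variable [Finite S]

theorem mem_of_sq_mem (hS : (2 : ℕ).Coprime (Nat.card S)) {U : Subgroup S} {s : S}
    (h : s ^ 2 ∈ U) : s ∈ U := by
  obtain ⟨m, hm⟩ := exists_pow_eq_self_of_coprime (x := s) (n := 2)
    (hS.coprime_dvd_right (orderOf_dvd_natCard s))
  exact hm ▸ pow_mem h m

theorem eq_one_of_eq_inv (hS : (2 : ℕ).Coprime (Nat.card S)) {s : S} (h : s = s⁻¹) : s = 1 :=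
  mem_bot.1 (mem_of_sq_mem hS (by rw [sq, mem_bot]; exact mul_eq_one_iff_eq_inv.2 h))

theorem mem_cU_of_inv (hS : (2 : ℕ).Coprime (Nat.card S)) {c : MulAut S} {u : S}
    (h : c u = u⁻¹) : u ∈ cU c := by
  refine mem_of_sq_mem hS ?_
  have := inv_mem (dHom_mem_cU c u)
  rwa [dHom_apply, h, mul_inv, inv_inv, ← sq] at this

theorem split_sup (hS : (2 : ℕ).Coprime (Nat.card S)) {U : Subgroup S} {t : MulAut S}
    (hU : ∀ u ∈ U, t u ∈ U) (ht : ∀ u ∈ U, t (t u) = u) :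
    (U ⊓ (dHom t).ker) ⊔ (U ⊓ (sHom t).ker) = U := by
  refine le_antisymm (sup_le inf_le_left inf_le_left) fun u hu => mem_of_sq_mem hS ?_
  have : u ^ 2 = (u * t u) * (u * (t u)⁻¹) := by
    rw [mul_mul_mul_comm, mul_inv_cancel, mul_one, sq]
  rw [this]
  refine mul_mem (mem_sup_left ⟨mul_mem hu (hU u hu), mem_ker_dHom.2 ?_⟩)
    (mem_sup_right ⟨U.mul_mem hu (U.inv_mem (hU u hu)), mem_ker_sHom.2 ?_⟩)
  · rw [map_mul, ht u hu, mul_comm]
  · rw [map_mul, map_inv, ht u hu, mul_inv, inv_inv, mul_comm]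

theorem split_inf (hS : (2 : ℕ).Coprime (Nat.card S)) (U : Subgroup S) (t : MulAut S) :
    (U ⊓ (dHom t).ker) ⊓ (U ⊓ (sHom t).ker) = ⊥ :=
  eq_bot_iff.2 fun u hu => mem_bot.2 (eq_one_of_eq_inv hS
    ((mem_ker_dHom.1 hu.1.2).symm.trans (mem_ker_sHom.1 hu.2.2)))

theorem split_card (hS : (2 : ℕ).Coprime (Nat.card S)) {U : Subgroup S} {t : MulAut S}
    (hU : ∀ u ∈ U, t u ∈ U) (ht : ∀ u ∈ U, t (t u) = u) :
    Nat.card U = Nat.card (U ⊓ (dHom t).ker : Subgroup S) *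
      Nat.card (U ⊓ (sHom t).ker : Subgroup S) := by
  rw [← H3.card_sup_of_inf_eq_bot le_normalizer_of_normal (split_inf hS U t), split_sup hS hU ht]

variable {f : Frm S C}

theorem inv9 (hS : (2 : ℕ).Coprime (Nat.card S)) {b : MulAut S} (hb : b ∈ f.aut)
    (h : Special b 4) {t : MulAut S} (htf : t ∈ f.aut) (hU : ∀ u ∈ cU b, t u ∈ cU b)
    (ht : ∀ u ∈ cU b, t (t u) = u) : (∀ u ∈ cU b, t u = u) ∨ ∀ u ∈ cU b, t u = u⁻¹ := by
  have h9 : Nat.card (cU b) = 3 ^ 2 := h.card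
  have hd : Nat.card (cU b ⊓ (dHom t).ker : Subgroup S) ∣ 3 ^ 2 :=
    h9 ▸ card_dvd_of_le inf_le_left
  obtain ⟨i, hi, h1⟩ := (Nat.dvd_prime_pow Nat.prime_three).1 hd
  interval_cases i
  · right
    intro u hu
    have h2 : u * t u ∈ cU b ⊓ (dHom t).ker :=
      ⟨mul_mem hu (hU u hu), mem_ker_dHom.2 (by rw [map_mul, ht u hu, mul_comm])⟩
    rw [card_eq_one.1 h1, mem_bot] at h2
    exact eq_inv_of_mul_eq_one_right h2
  · exfalso
    have : Fact (Nat.Prime 3) := ⟨Nat.prime_three⟩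
    have hcyc := isCyclic_of_prime_card (p := 3) (h1.trans (pow_one 3))
    obtain ⟨x, hx⟩ := hcyc.exists_generator
    have h2 : (x : S) = 1 := Frm.nondeg_cU hb (n := 2 ^ 2) (hS.pow_left 2) h.pow x.2.1
      fun v hv => by
        rw [← split_sup hS hU ht] at hv
        obtain ⟨y, hy, z, hz, rfl⟩ := mem_sup.1 hv
        obtain ⟨k, hk⟩ := hx ⟨y, hy⟩
        have h3 : f.ω x y = 1 := by
          rw [f.swap, inv_eq_one, show y = (x : S) ^ k from (congrArg Subtype.val hk).symm,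
            ← f.left_apply, map_zpow, f.left_apply, f.self, one_zpow]
        have h4 : f.ω x z = 1 := by
          rw [f.swap, inv_eq_one]
          exact Frm.orth_fix htf (mem_cU_of_inv hS (mem_ker_sHom.1 hz.2)) (mem_ker_dHom.1 x.2.2)
        rw [f.mul_right, h3, h4, mul_one]
    have h5 : Nat.card (cU b ⊓ (dHom t).ker : Subgroup S) = 1 := by
      rw [card_eq_one, eq_bot_iff]
      intro y hy
      obtain ⟨k, hk⟩ := hx ⟨y, hy⟩
      rw [mem_bot, show y = (x : S) ^ k from (congrArg Subtype.val hk).symm, h2, one_zpow]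
    omega
  · left
    have h2 := eq_of_le_of_card_ge (inf_le_left (a := cU b) (b := (dHom t).ker)) (by rw [h1, h9])
    exact fun u hu => mem_ker_dHom.1 ((h2.ge hu).2)

theorem eq_of_agree (hS : (2 : ℕ).Coprime (Nat.card S)) {A : Subgroup (MulAut S)}
    (hA : IsPGroup 2 A) {x y : MulAut S} (hx : x ∈ A) (hy : y ∈ A) {U : Subgroup S}
    (hxU : cU x ≤ U) (hyU : cU y ≤ U) (h : ∀ u ∈ U, x u = y u) : x = y := by
  obtain ⟨k, hk⟩ := hA ⟨y⁻¹ * x, mul_mem (inv_mem hy) hx⟩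
  have h1 : cU (y⁻¹ * x) ≤ U := mul_mem (inv_mem (mem_cULe.2 hyU)) (mem_cULe.2 hxU)
  have h2 := eq_one_of_fix_cU (hS.pow_left k) (congrArg Subtype.val hk) fun u hu => by
    rw [MulAut.mul_apply, h u (h1 hu), MulAut.inv_apply_self]
  exact (inv_mul_eq_one.1 h2).symm

theorem one_le_of_special {b : MulAut S} {k : ℕ} (h : Special b (2 ^ (k + 1))) : 1 ≤ k := by
  have := h.three_le
  rcases k with _ | k
  · omega
  · omega

theorem exists_descent {M : Type*} [Group M] {E : Subgroup M} (hE : ∀ t ∈ E, t * t = 1) {b : M}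
    (hb : b ∈ normalizer (E : Set M)) {j : ℕ} (hj : b ^ 2 ^ j = 1) {t : M} (ht : t ∈ E)
    (h : ⁅t, b⁆ ≠ 1) : ∃ t ∈ E, ⁅t, b⁆ ≠ 1 ∧ ⁅⁅t, b⁆, b⁆ = 1 := by
  classical
  have hi : ∀ t ∈ E, t⁻¹ = t := fun t ht => inv_eq_of_mul_eq_one_right (hE t ht)
  have hm : ∀ c ∈ normalizer (E : Set M), ∀ t ∈ E, ⁅t, c⁆ ∈ E := fun c hc t ht => by
    rw [commutatorElement_def, mul_assoc, mul_assoc, ← mul_assoc c]
    exact mul_mem ht ((mem_normalizer_iff.1 hc _).1 (inv_mem ht))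
  have hit : ∀ n, ∀ t ∈ E, (fun s => ⁅s, b⁆)^[n] t ∈ E := fun n => by
    induction n with
    | zero => exact fun t ht => ht
    | succ n ih => exact fun t ht => ih _ (hm b hb t ht)
  have hpow : ∀ i, ∀ t ∈ E, (fun s => ⁅s, b⁆)^[2 ^ i] t = ⁅t, b ^ 2 ^ i⁆ := fun i => by
    induction i with
    | zero => intro t _; simp
    | succ i ih =>
      intro t ht
      have hc := pow_mem hb (2 ^ i)
      rw [pow_succ, mul_two, Function.iterate_add_apply, ih t ht, ih _ (hm _ hc t ht), pow_add]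
      generalize b ^ 2 ^ i = c at hc
      have h1 : c * t * c⁻¹ ∈ E := (mem_normalizer_iff.1 hc _).1 ht
      have h2 := hE _ h1
      have h3 := hi _ (hm c hc t ht)
      rw [commutatorElement_def (⁅t, c⁆), h3]
      simp only [commutatorElement_def, hi t ht]
      calc t * c * t * c⁻¹ * c * (t * c * t * c⁻¹) * c⁻¹
          = t * ((c * t * c⁻¹) * (c * t * c⁻¹)) * (c * c) * t * (c * c)⁻¹ := by group
        _ = t * (c * c) * t * (c * c)⁻¹ := by rw [h2, mul_one]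
  have hex : ∃ n, (fun s => ⁅s, b⁆)^[n + 1] t = 1 := ⟨2 ^ j - 1, by
    rw [Nat.sub_add_cancel Nat.one_le_two_pow, hpow j t ht, hj, commutatorElement_one_right]⟩
  obtain ⟨n, hn⟩ : ∃ n, Nat.find hex = n + 1 := ⟨Nat.find hex - 1, by
    have : Nat.find hex ≠ 0 := fun h0 => h (by
      have h1 := Nat.find_spec hex
      rw [h0] at h1
      exact h1)
    omega⟩
  have h1 := Nat.find_spec hex
  have h2 := Nat.find_min hex (m := n) (by omega)
  rw [hn, Function.iterate_succ_apply', Function.iterate_succ_apply'] at h1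
  rw [Function.iterate_succ_apply'] at h2
  exact ⟨_, hit n t ht, h2, h1⟩

/-- An exceptional isometry centralizes every elementary abelian `2`-group of isometries that it
normalizes. -/
theorem cent_of_special (hS : (2 : ℕ).Coprime (Nat.card S)) {A : Subgroup (MulAut S)}
    (hA : IsPGroup 2 A) (hAf : A ≤ f.aut) {b : MulAut S} (hb : b ∈ A) {k : ℕ}
    (h : Special b (2 ^ (k + 1))) {E : Subgroup (MulAut S)} (hEA : E ≤ A)
    (hbE : b ∈ normalizer (E : Set (MulAut S))) (hE : ∀ t ∈ E, t * t = 1) {t : MulAut S}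
    (ht : t ∈ E) : Commute t b := by
  by_contra hcon
  obtain ⟨t, ht, h1, h2⟩ := exists_descent hE hbE h.pow ht
    (fun h1 => hcon (commutatorElement_eq_one_iff_commute.1 h1))
  have hcE : ⁅t, b⁆ ∈ E := by
    rw [commutatorElement_def, mul_assoc, mul_assoc, ← mul_assoc b]
    exact mul_mem ht ((mem_normalizer_iff.1 hbE _).1 (inv_mem ht))
  have hcb : Commute ⁅t, b⁆ b := commutatorElement_eq_one_iff_commute.1 h2
  have htb : t * b * t⁻¹ = ⁅t, b⁆ * b := by simp [commutatorElement_def]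
  generalize ⁅t, b⁆ = c at hcE hcb htb h1
  have hk := one_le_of_special h
  have h4 : 2 < 2 ^ (k + 1) := by have := h.three_le; omega
  have hU : cU (t * b * t⁻¹) = cU b := by
    rw [← (h.conj t).cU_pow two_pos h4, ← h.cU_pow two_pos h4, htb, hcb.mul_pow, sq c, hE c hcE,
      one_mul]
  have htU : ∀ u ∈ cU b, t u ∈ cU b := fun u hu => by
    rw [← hU, mem_cU_conj, MulAut.inv_apply_self]; exact hu
  have htt : ∀ u, t (t u) = u := fun u => by rw [← MulAut.mul_apply, hE t ht, MulAut.one_apply]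
  have hcc : ∀ u, c (c u) = u := fun u => by rw [← MulAut.mul_apply, hE c hcE, MulAut.one_apply]
  have hcU : cU c ≤ cU b := by
    rw [show c = t * b * t⁻¹ * b⁻¹ by rw [htb, mul_inv_cancel_right]]
    exact mul_mem (mem_cULe.2 hU.le) (inv_mem (mem_cULe.2 le_rfl))
  have hci : ∀ u ∈ cU b, c u = u⁻¹ := by
    rcases h.irreducible (U := cU b ⊓ (dHom c).ker) inf_le_left (fun u hu =>
      mem_inf.2 ⟨apply_mem_of_cU_le le_rfl hu.1, mem_ker_dHom.2 (by
        rw [← MulAut.mul_apply, hcb.eq, MulAut.mul_apply, mem_ker_dHom.1 hu.2])⟩) with h5 | h5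
    · intro u hu
      have h6 : u * c u ∈ cU b ⊓ (dHom c).ker :=
        ⟨mul_mem hu (apply_mem_of_cU_le hcU hu), mem_ker_dHom.2 (by rw [map_mul, hcc, mul_comm])⟩
      rw [h5, mem_bot] at h6
      exact eq_inv_of_mul_eq_one_right h6
    · exact absurd (eq_one_of_fix_cU (n := 2) hS (by rw [sq, hE c hcE]) fun u hu =>
        mem_ker_dHom.1 (h5.ge (hcU hu)).2) h1
  have key : ∀ u ∈ cU b, t (b u) = (b (t u))⁻¹ := fun u hu => by
    have h5 := MulEquiv.congr_fun htb (t u)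
    rw [MulAut.mul_apply, MulAut.mul_apply, MulAut.inv_apply_self, MulAut.mul_apply,
      hci _ (apply_mem_of_cU_le le_rfl (htU u hu))] at h5
    exact h5
  have hpm : ∀ u ∈ cU b ⊓ (dHom t).ker, b u ∈ cU b ⊓ (sHom t).ker := fun u hu =>
    ⟨apply_mem_of_cU_le le_rfl hu.1, mem_ker_sHom.2 (by rw [key u hu.1, mem_ker_dHom.1 hu.2])⟩
  have hmp : ∀ u ∈ cU b ⊓ (sHom t).ker, b u ∈ cU b ⊓ (dHom t).ker := fun u hu =>
    ⟨apply_mem_of_cU_le le_rfl hu.1, mem_ker_dHom.2 (by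
      rw [key u hu.1, mem_ker_sHom.1 hu.2, map_inv, inv_inv])⟩
  have hle : ∀ X Y : Subgroup S, (∀ u ∈ X, b u ∈ Y) → Nat.card X ≤ Nat.card Y := fun X Y hXY =>
    Nat.card_le_card_of_injective (fun u : X => (⟨b u, hXY u u.2⟩ : Y)) fun u v huv =>
      Subtype.ext (b.injective (congrArg Subtype.val huv))
  have hcard := split_card hS htU fun u _ => htt u
  rw [← le_antisymm (hle _ _ hpm) (hle _ _ hmp), h.card, sq] at hcard
  have h6 : Nat.card (cU b ⊓ (dHom t).ker : Subgroup S) = 2 ^ (k + 1) - 1 :=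
    (Nat.mul_self_inj.1 hcard).symm
  have h7 := dvd_card_sub_one_of_free (c := b ^ 2) (U := cU b ⊓ (dHom t).ker) (P := 2 ^ k)
    (fun u hu => by rw [sq, MulAut.mul_apply]; exact hmp _ (hpm u hu)) (by positivity)
    (by rw [← pow_mul, ← pow_succ', h.pow]) fun j hj hjP u hu h8 =>
      h.free (2 * j) (by omega) (by rw [pow_succ]; omega) u hu.1 (by rw [pow_mul, h8])
  rw [h6] at h7
  have h8 : 2 ^ k ∣ 2 := by
    have h9 : 2 ^ k * 2 = (2 ^ (k + 1) - 1 - 1) + 2 := by rw [← pow_succ]; omega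
    exact (Nat.dvd_add_right h7).1 (h9 ▸ Dvd.intro _ rfl)
  have hk1 : k = 1 := by
    have := (Nat.pow_dvd_pow_iff_le_right one_lt_two).1 (h8.trans (pow_one 2).symm.dvd)
    omega
  subst hk1
  apply h.ne_bot
  rw [eq_bot_iff]
  intro u hu
  have hbu : b u ∈ cU b := apply_mem_of_cU_le le_rfl hu
  have h9 : b u = 1 := eq_one_of_eq_inv hS (by
    rcases inv9 hS (hAf hb) h (hAf (hEA ht)) htU (fun u _ => htt u) with h10 | h10
    · have := key u hu
      rwa [h10 u hu, h10 _ hbu] at this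
    · have := key u hu
      rw [h10 u hu, h10 _ hbu, map_inv, inv_inv] at this
      exact this.symm)
  exact mem_bot.2 (b.injective (h9.trans (map_one b).symm))

theorem eq_one_of_two_special {q : ℕ} (hq : q.Prime) (hSq : IsPGroup q S) {b b' : MulAut S}
    (h : Special b 4) {k : ℕ} (h' : Special b' (2 ^ (k + 1))) : k = 1 := by
  have : Fact q.Prime := ⟨hq⟩
  obtain ⟨n, hn⟩ := hSq.exists_card_eq
  have h1 : 3 ∣ q ^ n := hn ▸ (Dvd.intro 3 (h.card.symm)).trans (card_subgroup_dvd_card (cU b))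
  obtain rfl : 3 = q := (Nat.prime_dvd_prime_iff_eq Nat.prime_three hq).1
    (Nat.prime_three.dvd_of_dvd_pow h1)
  have h2 : 2 ^ (k + 1) - 1 ∣ 3 ^ n :=
    hn ▸ (Dvd.intro _ ((sq _).symm.trans h'.card.symm)).trans (card_subgroup_dvd_card (cU b'))
  obtain ⟨c, -, hc⟩ := (Nat.dvd_prime_pow hq).1 h2
  have hk := one_le_of_special h'
  by_contra hne
  obtain ⟨l, rfl⟩ : ∃ l, k = l + 2 := ⟨k - 2, by omega⟩
  have h3 : ∀ c : ℕ, 3 ^ c % 8 = 1 ∨ 3 ^ c % 8 = 3 := fun c => by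
    induction c with
    | zero => simp
    | succ c ih => rw [pow_succ]; omega
  have h4 := h3 c
  have h5 : 2 ^ (l + 2 + 1) = 8 * 2 ^ l := by ring
  have h6 : 0 < 2 ^ l := by positivity
  omega

theorem fix_of_conj_ne (hS : (2 : ℕ).Coprime (Nat.card S)) {A : Subgroup (MulAut S)}
    (hA : IsPGroup 2 A) {b : MulAut S} (hb : b ∈ A) {k : ℕ} (h : Special b (2 ^ (k + 1)))
    {v : MulAut S} (hv : v ∈ A) (hne : ¬ Commute (b ^ 2 ^ k) v) :
    Commute (v * b * v⁻¹) b ∧ ∀ u ∈ cU b, (v * b * v⁻¹) u = u := by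
  have hb' : v * b * v⁻¹ ∈ A := mul_mem (mul_mem hv hb) (inv_mem hv)
  have hne' : (v * b * v⁻¹) ^ 2 ^ k ≠ b ^ 2 ^ k := fun h1 => hne (by
    rw [conj_pow, mul_inv_eq_iff_eq_mul] at h1
    exact h1.symm)
  have hc := (h.pow_eq_or_commute (h.conj v) hS hA hb hb').resolve_left hne'
  refine ⟨hc, ((h.conj v).le_or_fix fun u hu => apply_mem_cU_of_commute hc.eq hu).resolve_left
    fun h1 => hne' ?_⟩
  have h2 : cU (v * b * v⁻¹) = cU b := eq_of_le_of_card_ge h1 (by rw [h.card, (h.conj v).card])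
  exact eq_of_agree hS hA (pow_mem hb' _) (pow_mem hb _) ((cU_pow_le _ _).trans h1) (cU_pow_le _ _)
    fun u hu => by rw [h.apply_pow_half hu, (h.conj v).apply_pow_half (h2 ▸ hu)]

/-- The case of a group `E` of class two not centralized by the involution in `⟨b⟩`. -/
theorem class_two_special (hS : (2 : ℕ).Coprime (Nat.card S)) {A : Subgroup (MulAut S)}
    (hA : IsPGroup 2 A) (hAf : A ≤ f.aut) {b : MulAut S} (hb : b ∈ A) {k : ℕ}
    (h : Special b (2 ^ (k + 1))) {E Z : Subgroup (MulAut S)} (hEA : E ≤ A) (hZE : Z ≤ E)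
    (hbE : b ∈ normalizer (E : Set (MulAut S))) (hbZ : b ∈ normalizer (Z : Set (MulAut S)))
    (hZ : ∀ z ∈ Z, z * z = 1) (hZc : ∀ z ∈ Z, ∀ t ∈ E, Commute z t) (hsq : ∀ t ∈ E, t * t ∈ Z)
    {v : MulAut S} (hv : v ∈ E) (hne : ¬ Commute (b ^ 2 ^ k) v) :
    k = 1 ∧ ∀ t ∈ E, ((t * b) ^ 2 = 1 ∨ Special (t * b) 4) →
      ∀ s ∈ E, Commute ((t * b) ^ 2 * (b ^ 2)⁻¹) s := by
  have hZb : ∀ z ∈ Z, Commute z b := fun z hz =>
    cent_of_special hS hA hAf hb h (hZE.trans hEA) hbZ hZ hz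
  have hm : ∀ t ∈ E, t * b * t⁻¹ * b⁻¹ ∈ E := fun t ht => by
    rw [mul_assoc, mul_assoc, ← mul_assoc b]
    exact mul_mem ht ((mem_normalizer_iff.1 hbE _).1 (inv_mem ht))
  have h4 : ∀ t ∈ E, t ^ 4 = 1 := fun t ht => by
    rw [← hZ _ (hsq t ht)]; simp only [pow_succ, pow_zero, one_mul, mul_assoc]
  obtain ⟨hvc, hvf⟩ := fix_of_conj_ne hS hA hb h (hEA hv) hne
  have hk : k = 1 := by
    have hk := one_le_of_special h
    by_contra hk1
    obtain ⟨l, rfl⟩ : ∃ l, k = l + 2 := ⟨k - 2, by omega⟩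
    have h1 := h4 _ (hm v hv)
    rw [hvc.inv_right.mul_pow, inv_pow, mul_inv_eq_one] at h1
    refine h.ne_bot (eq_bot_iff.2 fun u hu => mem_bot.2 (h.free 4 (by omega) ?_ u hu ?_))
    · have : 2 ^ (l + 2 + 1) = 8 * 2 ^ l := by ring
      have : 0 < 2 ^ l := by positivity
      omega
    · rw [← h1]; exact pow_apply_of_fix (hvf u hu) 4
  refine ⟨hk, ?_⟩
  subst hk
  have h' : Special b 4 := h
  have hinv : ∀ u ∈ cU b, (b ^ 2) u = u⁻¹ := fun u hu => h.apply_pow_half hu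
  have hnt : ¬ ∀ u ∈ cU b, (b ^ 2) u = u := fun h1 => h.ne_bot (eq_bot_iff.2 fun u hu =>
    mem_bot.2 (eq_one_of_eq_inv hS ((h1 u hu).symm.trans (hinv u hu))))
  have hUU : cU b ⊓ cU (v * b * v⁻¹) = ⊥ := eq_bot_iff.2 fun u hu =>
    mem_bot.2 ((h.conj v).fix hu.2 (hvf u hu.1))
  have hvU : ∀ u ∈ cU b, v u ∈ cU (v * b * v⁻¹) := fun u hu => by
    rwa [mem_cU_conj, MulAut.inv_apply_self]
  intro t ht halt
  have ht4 : (t * b) ^ 4 = 1 := by
    rcases halt with h1 | h1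
    · rw [show 4 = 2 * 2 from rfl, pow_mul, h1, one_pow]
    · exact h1.pow
  have e1 : (t * b) ^ 2 = t * t * (t⁻¹ * b * t⁻¹⁻¹) * b := by rw [inv_inv, sq]; group
  have htt := hsq t ht
  by_cases hta : Commute (b ^ 2 ^ 1) t⁻¹
  swap
  · exfalso
    obtain ⟨h1, h2⟩ := fix_of_conj_ne hS hA hb h (hEA (inv_mem ht)) hta
    have h3 : Commute (t * t) (t⁻¹ * b * t⁻¹⁻¹) :=
      (((hZc _ htt _ (inv_mem ht)).mul_right (hZb _ htt)).mul_right
        (hZc _ htt _ (inv_mem (inv_mem ht))))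
    rw [show 4 = 2 * 2 from rfl, pow_mul, e1, ((hZb _ htt).mul_left h1).mul_pow, h3.mul_pow,
      sq (t * t), hZ _ htt, one_mul] at ht4
    refine hnt fun u hu => ?_
    have h5 := MulEquiv.congr_fun ht4 u
    rw [MulAut.mul_apply, pow_apply_of_fix (h2 _ (apply_mem_of_cU_le (cU_pow_le b 2) hu))] at h5
    exact h5
  have hta' : Commute t⁻¹ (b ^ 2) := hta.symm
  have hU2 : cU (b ^ 2) = cU b := h.cU_pow two_pos (by norm_num)
  have htU : ∀ u ∈ cU b, t u ∈ cU b := fun u hu => by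
    rw [← hU2] at hu ⊢
    exact apply_mem_cU_of_commute (Commute.inv_left_iff.1 hta').eq hu
  have hd := hm _ (inv_mem ht)
  have hdU : cU (t⁻¹ * b * t⁻¹⁻¹ * b⁻¹) ≤ cU b :=
    mul_mem (mem_cULe.2 fun u hu => by
      rw [mem_cU_conj, inv_inv] at hu
      rw [← hU2] at hu ⊢
      simpa using apply_mem_cU_of_commute hta'.eq hu) (inv_mem (mem_cULe.2 le_rfl))
  have e2 : t⁻¹ * b * t⁻¹⁻¹ = (t⁻¹ * b * t⁻¹⁻¹ * b⁻¹) * b := by group
  rw [e2] at e1
  have e3 : ∀ u, t⁻¹ (b (t u)) = (t⁻¹ * b * t⁻¹⁻¹ * b⁻¹) (b u) := fun u => by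
    simp [MulAut.mul_apply]
  generalize t⁻¹ * b * t⁻¹⁻¹ * b⁻¹ = d at hd hdU e1 e3
  have hdd : d * d = 1 := by
    have h1 : cU (d * d) ≤ cU b := mul_mem (mem_cULe.2 hdU) (mem_cULe.2 hdU)
    have h2 : cU (d * d) = ⊥ := by
      rw [eq_bot_iff, ← hUU]
      refine le_inf h1 fun u hu => ?_
      have h3 := apply_mem_cU_of_commute ((hZc _ (hsq d hd) _ (inv_mem hv)).symm.eq) hu
      simpa using hvU _ (h1 h3)
    ext s
    exact dHom_eq_one.1 (mem_bot.1 (h2 ▸ dHom_mem_cU _ s))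
  rcases inv9 hS (hAf hb) h' (hAf (hEA hd)) (fun u hu => apply_mem_of_cU_le hdU hu)
    (fun u _ => by rw [← MulAut.mul_apply, hdd, MulAut.one_apply]) with h1 | h1
  · have h2 : d = 1 := eq_one_of_fix_cU (n := 2) hS (by rw [sq, hdd]) fun u hu => h1 u (hdU hu)
    intro s hs
    rw [e1, h2, one_mul, mul_assoc _ b b, ← sq b, mul_inv_cancel_right]
    exact hZc _ htt s hs
  exfalso
  have h2 : d = b ^ 2 := eq_of_agree hS hA (hEA hd) (pow_mem hb 2) hdU (cU_pow_le b 2)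
    fun u hu => by rw [h1 u hu, hinv u hu]
  have h3 : (t * b) ^ 2 = t * t := by
    rw [e1, h2, mul_assoc (t * t), ← pow_succ, ← pow_succ, h'.pow, mul_one]
  have h5 : ∀ u ∈ cU b, (t * t) u = u⁻¹ := by
    refine (inv9 hS (hAf hb) h' (hAf (hEA (hZE htt))) (fun u hu => htU _ (htU u hu))
      (fun u _ => by rw [← MulAut.mul_apply, hZ _ htt, MulAut.one_apply])).resolve_left
      fun h5 => h.ne_bot (eq_bot_iff.2 fun u hu => mem_bot.2 ?_)
    have hbu : b u ∈ cU b := apply_mem_of_cU_le le_rfl hu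
    have h6 : b u = 1 := eq_one_of_eq_inv hS (by
      have h7 := congrArg t (e3 u)
      rw [MulAut.apply_inv_self, h1 _ hbu, map_inv] at h7
      rcases inv9 hS (hAf hb) h' (hAf (hEA ht)) htU h5 with h8 | h8
      · rwa [h8 u hu, h8 _ hbu] at h7
      · rw [h8 u hu, h8 _ hbu, map_inv, inv_inv] at h7
        exact h7.symm)
    exact b.injective (h6.trans (map_one b).symm)
  rcases halt with h6 | h6
  · rw [h3] at h6
    refine h.ne_bot (eq_bot_iff.2 fun u hu => mem_bot.2 (eq_one_of_eq_inv hS ?_))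
    rw [← h5 u hu, h6, MulAut.one_apply]
  have h7 : cU (t * t) = cU (t * b) := by rw [← h3]; exact h6.cU_pow two_pos (by norm_num)
  have h8 : cU b = cU (t * b) := eq_of_le_of_card_ge
    (fun u hu => h7 ▸ mem_cU_of_inv hS (h5 u hu)) (by rw [h'.card, h6.card])
  have h9 : cU (v * b * v⁻¹) ≤ cU (t * b) := fun u hu => by
    rw [mem_cU_conj] at hu
    refine h7 ▸ mem_cU_of_inv hS ?_
    have h10 := congrArg v (h5 _ hu)
    rwa [← MulAut.mul_apply, ← (hZc _ htt v hv).eq, MulAut.mul_apply, MulAut.apply_inv_self,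
      map_inv, MulAut.apply_inv_self] at h10
  exact (h.conj v).ne_bot (by rw [← hUU, h8, inf_eq_right.2 h9])

end H85.TL
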