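import Mathlib
import Cfsg.Agent.Lib.FGS.HHWeight2
import Cfsg.Agent.Lib.H85.TL1
import Cfsg.Agent.Lib.H85.TL2

/-! The symplectic section of a weight as a group with a form; isometries induced by the
elements of the ambient group. -/

set_option autoImplicit false
set_option linter.unusedSectionVars false
set_option linter.style.haveILetI false

namespace H85.TL

open Cfsg Subgroup H76 Module Polynomial
open scoped commutatorElement

variable {F : Type*} [Field F] {V : Type*} [AddCommGroup V] [Module F V] {G : Type*} [Group G]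
variable (ρ : G →* End F V) (Q : Subgroup G) [Fintype Q] (lam : G → F)

/-- The elements preserving the commutator form of a weight. -/
def wN : Subgroup G where
  carrier := {x | x ∈ normalizer (Q : Set G) ∧ ∀ g ∈ Q, ∀ h ∈ Q, ∀ v ∈ wsp ρ Q lam,
    ρ (x * ⁅g, h⁆ * x⁻¹) v = ρ ⁅g, h⁆ v}
  one_mem' := ⟨one_mem _, fun g _ h _ v _ => by simp⟩
  mul_mem' := by
    rintro a b ⟨ha, ha'⟩ ⟨hb, hb'⟩
    refine ⟨mul_mem ha hb, fun g hg h hh v hv => ?_⟩
    rw [← hb' g hg h hh v hv, conjugate_commutatorElement g h b,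
      ← ha' _ (H68.conj_mem_of_mem_normalizer hb hg) _ (H68.conj_mem_of_mem_normalizer hb hh) v hv,
      ← conjugate_commutatorElement g h b]
    congr 2
    group
  inv_mem' := by
    rintro a ⟨ha, ha'⟩
    refine ⟨inv_mem ha, fun g hg h hh v hv => ?_⟩
    rw [conjugate_commutatorElement g h a⁻¹,
      ← ha' _ (H68.conj_mem_of_mem_normalizer (inv_mem ha) hg) _
        (H68.conj_mem_of_mem_normalizer (inv_mem ha) hh) v hv,
      ← conjugate_commutatorElement g h a⁻¹]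
    congr 2
    group

variable {ρ Q lam}

theorem wN_le : wN ρ Q lam ≤ normalizer (Q : Set G) := fun _ h => h.1

theorem mem_wN_of_cent {x : G} (hx : x ∈ normalizer (Q : Set G))
    (h : x ∈ centralizer ((⁅Q, Q⁆ : Subgroup G) : Set G)) : x ∈ wN ρ Q lam :=
  ⟨hx, fun g hg k hk v _ => by
    rw [← h _ (commutator_mem_commutator hg hk), mul_inv_cancel_right]⟩

variable [hcl : ClassTwo Q]

theorem wstab_le_wN (hQ : (Fintype.card Q : F) ≠ 0) : wstab Q lam ≤ wN ρ Q lam := fun x hx =>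
  ⟨hx.1, fun g hg k hk v hv => by
    have h1 := commutator_le_wZ (ρ := ρ) (lam := lam) (commutator_mem_commutator hg hk)
    have h2 := commutator_apply_of_wπ_eq_one hQ ((coe_mem_wZ (g := ⟨_, wZ_le h1⟩)).1 h1) hx
      (apply_mem_wsp_of_mem' (wZ_le h1) hv)
    rw [← End.mul_apply, ← map_mul] at h2
    rw [← h2]
    congr 2
    rw [commutatorElement_def x, inv_mul_cancel_right]⟩

variable (ρ Q lam) in
/-- The action on the symplectic section. -/
noncomputable def wφ : wN ρ Q lam →* MulAut (wS ρ Q lam) :=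
  H2.quotAut (H2.conjAut wN_le) (quasiCenter (wrep ρ Q lam)) fun x g hg => by
    rw [← ker_wπ, MonoidHom.mem_ker, wπ_eq_one_iff] at hg ⊢
    intro k hk v hv
    have h1 := H68.conj_mem_of_mem_normalizer' x.2.1 hk
    have h2 := x.2.2 _ h1 g g.2 v hv
    rw [hg _ h1 v hv, conjugate_commutatorElement] at h2
    rw [H2.coe_conjAut_apply, ← h2]
    congr 3
    group

open Classical in
variable (ρ Q lam) in
/-- The action on the symplectic section, as a total function. -/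
noncomputable def Φ (g : G) : MulAut (wS ρ Q lam) :=
  if h : g ∈ wN ρ Q lam then wφ ρ Q lam ⟨g, h⟩ else 1

theorem Φ_eq {g : G} (h : g ∈ wN ρ Q lam) : Φ ρ Q lam g = wφ ρ Q lam ⟨g, h⟩ := dif_pos h

theorem Φ_mul {g h : G} (hg : g ∈ wN ρ Q lam) (hh : h ∈ wN ρ Q lam) :
    Φ ρ Q lam (g * h) = Φ ρ Q lam g * Φ ρ Q lam h := by
  rw [Φ_eq hg, Φ_eq hh, Φ_eq (mul_mem hg hh), ← map_mul]; rfl

theorem Φ_inv {g : G} (hg : g ∈ wN ρ Q lam) : Φ ρ Q lam g⁻¹ = (Φ ρ Q lam g)⁻¹ := by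
  rw [Φ_eq hg, Φ_eq (inv_mem hg), ← map_inv]; rfl

theorem Φ_pow {g : G} (hg : g ∈ wN ρ Q lam) (n : ℕ) : Φ ρ Q lam (g ^ n) = Φ ρ Q lam g ^ n := by
  rw [Φ_eq hg, Φ_eq (pow_mem hg n), ← map_pow]; rfl

theorem Φ_one : Φ ρ Q lam 1 = 1 := by
  rw [Φ_eq (one_mem _)]; exact map_one (wφ ρ Q lam)

theorem Φ_wπ {x : G} (hx : x ∈ wN ρ Q lam) (g : Q) :
    Φ ρ Q lam x (wπ ρ Q lam g) = wπ ρ Q lam (conjAut Q hx.1 g) := by
  rw [Φ_eq hx]; rfl

theorem Φ_eq_wact (hQ : (Fintype.card Q : F) ≠ 0) {x : G} (hx : x ∈ wstab Q lam) :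
    Φ ρ Q lam x = wact ρ Q lam ⟨x, hx⟩ := by
  ext s
  obtain ⟨g, rfl⟩ := wπ_surjective s
  rw [Φ_wπ (wstab_le_wN hQ hx), wact_wπ]

theorem Φ_eq_one_of_cent (hQ : (Fintype.card Q : F) ≠ 0) {x : G}
    (hx : x ∈ centralizer (Q : Set G)) : Φ ρ Q lam x = 1 := by
  rw [Φ_eq_wact hQ (centralizer_le_wstab hx)]
  exact wact_eq_one_of_mem_centralizer _ hx

variable (ρ Q lam) in
/-- The image of a subgroup. -/
noncomputable def im (T : Subgroup G) : Subgroup (MulAut (wS ρ Q lam)) :=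
  (T.subgroupOf (wN ρ Q lam)).map (wφ ρ Q lam)

theorem Φ_mem_im {T : Subgroup G} {g : G} (hg : g ∈ T) (h : g ∈ wN ρ Q lam) :
    Φ ρ Q lam g ∈ im ρ Q lam T := ⟨⟨g, h⟩, hg, (Φ_eq h).symm⟩

theorem mem_im {T : Subgroup G} {t : MulAut (wS ρ Q lam)} (h : t ∈ im ρ Q lam T) :
    ∃ g ∈ T, g ∈ wN ρ Q lam ∧ Φ ρ Q lam g = t := by
  obtain ⟨g, hg, rfl⟩ := h
  exact ⟨g, hg, g.2, Φ_eq g.2⟩

theorem im_mono {T T' : Subgroup G} (h : T ≤ T') : im ρ Q lam T ≤ im ρ Q lam T' :=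
  map_mono (subgroupOf_mono _ h)

theorem isPGroup_im {p : ℕ} {T : Subgroup G} (h : IsPGroup p T) : IsPGroup p (im ρ Q lam T) :=
  isPGroup_map_subgroupOf h _

theorem Φ_mem_normalizer_im {T : Subgroup G} {x : G} (hx : x ∈ normalizer (T : Set G))
    (h : x ∈ wN ρ Q lam) : Φ ρ Q lam x ∈ normalizer (im ρ Q lam T : Set _) := by
  refine mem_normalizer_fintype fun t ht => ?_
  obtain ⟨g, hg, hg', rfl⟩ := mem_im ht
  rw [← Φ_inv h, ← Φ_mul h hg', ← Φ_mul (mul_mem h hg') (inv_mem h)]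
  exact Φ_mem_im (H68.conj_mem_of_mem_normalizer hx hg) (mul_mem (mul_mem h hg') (inv_mem h))

omit [Fintype Q] in
theorem comm_mul_left (a b c : Q) : ⁅a * b, c⁆ = ⁅a, c⁆ * ⁅b, c⁆ := by
  have h1 : ⁅a * b, c⁆ = a * ⁅b, c⁆ * a⁻¹ * ⁅a, c⁆ := by
    simp only [commutatorElement_def]; group
  rw [h1, ← hcl.comm b c a, mul_inv_cancel_right, hcl.comm]

variable (ρ Q lam) in
/-- The commutator form on `Q`. -/
noncomputable def bf (g h : Q) : (End F (wsp ρ Q lam))ˣ := (wrep ρ Q lam).toHomUnits ⁅g, h⁆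

theorem bf_swap (g h : Q) : bf ρ Q lam h g = (bf ρ Q lam g h)⁻¹ := by
  rw [bf, bf, ← map_inv, commutatorElement_inv]

theorem bf_mul (g g' h : Q) : bf ρ Q lam (g * g') h = bf ρ Q lam g h * bf ρ Q lam g' h := by
  rw [bf, comm_mul_left, map_mul]; rfl

theorem bf_eq_one_iff {g h : Q} :
    bf ρ Q lam g h = 1 ↔ ∀ v ∈ wsp ρ Q lam, ρ ⁅(g : G), (h : G)⁆ v = v := by
  rw [bf, Units.ext_iff, MonoidHom.coe_toHomUnits, Units.val_one]
  constructor
  · intro h1 v hv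
    exact congrArg Subtype.val (LinearMap.congr_fun h1 ⟨v, hv⟩)
  · intro h1
    ext v
    exact h1 v v.2

theorem wπ_eq_one_iff_bf {g : Q} : wπ ρ Q lam g = 1 ↔ ∀ k, bf ρ Q lam g k = 1 := by
  rw [wπ_eq_one_iff]
  constructor
  · intro h k
    rw [bf_swap, inv_eq_one, bf_eq_one_iff]
    exact h k k.2
  · intro h k hk
    have := h ⟨k, hk⟩
    rw [bf_swap, inv_eq_one, bf_eq_one_iff] at this
    exact this

theorem bf_congr {g g' : Q} (h : wπ ρ Q lam g = wπ ρ Q lam g') (k : Q) :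
    bf ρ Q lam g k = bf ρ Q lam g' k := by
  have h1 : wπ ρ Q lam (g⁻¹ * g') = 1 := by rw [map_mul, map_inv, h, inv_mul_cancel]
  rw [← mul_inv_cancel_left g g', bf_mul g, wπ_eq_one_iff_bf.1 h1, mul_one]

theorem bf_sec (g h : Q) :
    bf ρ Q lam (Function.surjInv wπ_surjective (wπ ρ Q lam g))
      (Function.surjInv wπ_surjective (wπ ρ Q lam h)) = bf ρ Q lam g h := by
  rw [bf_congr (Function.surjInv_eq wπ_surjective _), bf_swap,
    bf_congr (Function.surjInv_eq wπ_surjective _), ← bf_swap]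

variable (ρ Q lam) in
/-- The form on the symplectic section. -/
noncomputable def wF : Frm (wS ρ Q lam) (End F (wsp ρ Q lam))ˣ where
  ω s t := bf ρ Q lam (Function.surjInv wπ_surjective s) (Function.surjInv wπ_surjective t)
  mul_left s s' t := by
    obtain ⟨g, rfl⟩ := wπ_surjective s
    obtain ⟨g', rfl⟩ := wπ_surjective s'
    obtain ⟨h, rfl⟩ := wπ_surjective t
    rw [← map_mul, bf_sec, bf_sec, bf_sec, bf_mul]
  swap s t := bf_swap _ _
  self s := by rw [bf, commutatorElement_self, map_one]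
  nondeg s h := by
    obtain ⟨g, rfl⟩ := wπ_surjective s
    exact wπ_eq_one_iff_bf.2 fun k => by rw [← bf_sec]; exact h _

theorem wF_wπ (g h : Q) : (wF ρ Q lam).ω (wπ ρ Q lam g) (wπ ρ Q lam h) = bf ρ Q lam g h :=
  bf_sec g h

theorem im_le_aut (T : Subgroup G) : im ρ Q lam T ≤ (wF ρ Q lam).aut := by
  intro t ht s s'
  obtain ⟨x, -, hx, rfl⟩ := mem_im ht
  obtain ⟨g, rfl⟩ := wπ_surjective s
  obtain ⟨h, rfl⟩ := wπ_surjective s'
  rw [Φ_wπ hx, Φ_wπ hx, wF_wπ, wF_wπ, bf, bf, Units.ext_iff, MonoidHom.coe_toHomUnits,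
    MonoidHom.coe_toHomUnits, ← map_commutatorElement]
  ext v
  exact hx.2 g g.2 h h.2 v v.2

omit [Fintype Q] hcl in
theorem classTwo_of_minAct [Finite G] {q : ℕ} [Fact q.Prime] {K P : Subgroup G}
    (h : H47.MinAct q K P Q) : ClassTwo Q :=
  ⟨fun a b c => Subtype.ext
    (h.commutator_le_center (commutator_mem_commutator a.2 b.2) c c.2).symm⟩

omit [Fintype Q] hcl in
theorem pow_eq_one_of_mem_commutator [Finite G] {q : ℕ} [Fact q.Prime] {K P : Subgroup G}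
    (h : H47.MinAct q K P Q) {z : G} (hz : z ∈ ⁅Q, Q⁆) : z ^ q = 1 := by
  have := classTwo_of_minAct h
  let W : Subgroup G :=
    { carrier := {z | z ∈ ⁅Q, Q⁆ ∧ z ^ q = 1}
      one_mem' := ⟨one_mem _, one_pow _⟩
      mul_mem' := fun {a b} ha hb => ⟨mul_mem ha.1 hb.1, by
        have : Commute a b := (h.commutator_le_center ha.1 b (h.commutator_lt.le hb.1)).symm
        rw [this.mul_pow, ha.2, hb.2, mul_one]⟩
      inv_mem' := fun {a} ha => ⟨inv_mem ha.1, by rw [inv_pow, ha.2, inv_one]⟩ }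
  suffices h1 : ⁅Q, Q⁆ ≤ W from (h1 hz).2
  refine commutator_le.2 fun a ha b hb => ⟨commutator_mem_commutator ha hb, ?_⟩
  let c : Q →* Q := MonoidHom.mk' (fun x => ⁅x, (⟨b, hb⟩ : Q)⁆) fun x y => comm_mul_left x y _
  have h2 : c (⟨a, ha⟩ ^ q) = 1 := Subtype.ext (commutatorElement_eq_one_iff_mul_comm.2
    (h.commutator_le_center (h.pow_mem ha) b hb).symm)
  rw [map_pow] at h2
  exact congrArg Subtype.val h2

end H85.TL
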