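import Mathlib
import Cfsg.Agent.Lib.H85.TL3

/-! The local analysis for the exponent bound of the `2`-length. -/

set_option autoImplicit false
set_option linter.unusedSectionVars false
set_option linter.style.haveILetI false

namespace H85.TL

open Cfsg Subgroup H76 Module Polynomial
open scoped commutatorElement

variable {F : Type*} [Field F] {V : Type*} [AddCommGroup V] [Module F V] {G : Type*} [Group G]

theorem le_normalizer_relCentralizer [Finite G] {X H N : Subgroup G}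
    (hH : X ≤ normalizer (H : Set G)) (hN : X ≤ normalizer (N : Set G)) :
    X ≤ normalizer (H2.relCentralizer H N : Set G) := fun x hx =>
  mem_normalizer_fintype fun g hg => ⟨mul_mem (mul_mem (hN hx) hg.1) (inv_mem (hN hx)),
    fun z hz => by
      have h1 := H2.conj_mem_of_le_normalizer hN hx
        (hg.2 _ (H2.inv_conj_mem_of_le_normalizer hH hx hz))
      rwa [conjugate_commutatorElement, show x * (x⁻¹ * z * x) * x⁻¹ = z by group] at h1⟩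

/-- The tower `P, Q` on a module on which all `2`-elements are exceptional. -/
structure St (ρ : G →* End F V) (e q : ℕ) (B A P Q : Subgroup G) : Prop where
  hq : q ≠ 2
  hP : H47.MinAct 2 B A P
  hQ : H47.MinAct q (P ⊔ B) P Q
  h6 : ∀ (y : G) (k : ℕ), y ^ 2 ^ k = 1 →
    y ^ 2 ^ (e + 1) = 1 ∧ ∑ i ∈ Finset.range (2 ^ (e + 1)), ρ y ^ i = 0

variable [Finite G] {q : ℕ} [hqp : Fact q.Prime] {B A P Q : Subgroup G}

theorem cop_of_ne (hq : q ≠ 2) (hQ : IsPGroup q Q) : (2 : ℕ).Coprime (Nat.card Q) := by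
  obtain ⟨n, hn⟩ := IsPGroup.iff_card.1 hQ
  rw [hn]
  exact Nat.Coprime.pow_right _ ((Nat.coprime_primes Nat.prime_two hqp.out).2 hq.symm)

theorem sup_le_normalizer {p : ℕ} (hP : H47.MinAct p B A P) :
    P ⊔ B ≤ normalizer (P : Set G) := sup_le le_normalizer hP.hBP

theorem isPGroup_sup_zpowers {p : ℕ} (hP : H47.MinAct p B A P) {x : G} (hx : x ∈ P ⊔ B) {k : ℕ}
    (hk : x ^ p ^ k = 1) : IsPGroup p (P ⊔ zpowers x : Subgroup G) :=
  hP.pgrp.to_sup_of_normal_left' (isPGroup_zpowers_of_pow_eq_one hk)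
    ((zpowers_le.2 hx).trans (sup_le_normalizer hP))

theorem exists_mul_pow_eq_one {p : ℕ} (hP : H47.MinAct p B A P) {x u : G} (hx : x ∈ P ⊔ B)
    {k : ℕ} (hk : x ^ p ^ k = 1) (hu : u ∈ P) : ∃ l, (u * x) ^ p ^ l = 1 :=
  H68.isPGroup_iff_forall.1 (isPGroup_sup_zpowers hP hx hk) _
    (mul_mem (mem_sup_left hu) (mem_sup_right (mem_zpowers x)))

theorem le_wN_of_minAct {K : Subgroup G} (hQ : H47.MinAct q K P Q) [Fintype Q] (ρ : G →* End F V)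
    (lam : G → F) : P ≤ wN ρ Q lam := fun _ hx =>
  mem_wN_of_cent (hQ.hAP hx) (le_centralizer_iff.1 hQ.commutator_le_centralizer hx)

theorem inf_cent_le {K : Subgroup G} (hP : H47.MinAct 2 B A P) (hQ : H47.MinAct q K P Q)
    (hB : B ≤ K) : P ⊓ centralizer (Q : Set G) ≤ ⁅P, P⁆ := by
  refine hP.le_commutator (lt_of_le_of_ne inf_le_left fun h => hQ.nontriv ?_)
    (H2.le_normalizer_inf hP.hBP (H2.le_normalizer_centralizer (hB.trans hQ.hBP)))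
  rw [commutator_comm, commutator_eq_bot_iff_le_centralizer]
  exact h.ge.trans inf_le_right

theorem inf_rel_le {K : Subgroup G} (hP : H47.MinAct 2 B A P) (hQ : H47.MinAct q K P Q)
    (hB : B ≤ K) (h : ¬ ⁅P, P⁆ ≤ centralizer (Q : Set G)) :
    P ⊓ H2.relCentralizer P (centralizer (Q : Set G)) ≤ ⁅P, P⁆ := by
  refine hP.le_commutator (lt_of_le_of_ne inf_le_left fun h' => h ?_)
    (H2.le_normalizer_inf hP.hBP (le_normalizer_relCentralizer hP.hBP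
      (H2.le_normalizer_centralizer (hB.trans hQ.hBP))))
  exact (H2.le_relCentralizer_iff.1 (h'.ge.trans inf_le_right)).2

variable [IsAlgClosed F] [FiniteDimensional F V] [CharP F 2] {ρ : G →* End F V} {e : ℕ}
  [Fintype Q] [ClassTwo Q] {lam : G → F}

theorem card_ne_zero (hq : q ≠ 2) (hQ : IsPGroup q Q) : (Fintype.card Q : F) ≠ 0 := by
  rw [← Nat.card_eq_fintype_card]
  exact cast_ne_zero_of_coprime (p := 2) (cop_of_ne hq hQ).symm

theorem cop_wS (hq : q ≠ 2) (hQ : IsPGroup q Q) : (2 : ℕ).Coprime (Nat.card (wS ρ Q lam)) :=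
  (cop_of_ne hq hQ).coprime_dvd_right card_wS_dvd

theorem isPGroup_wS (hQ : IsPGroup q Q) : IsPGroup q (wS ρ Q lam) :=
  hQ.of_surjective _ wπ_surjective

theorem exists_Φ_ne_one (hq : q ≠ 2) (hQ : IsPGroup q Q) (hρ : Function.Injective ρ) {y : G}
    (hy : y ∈ normalizer (Q : Set G)) {k : ℕ} (hk : y ^ 2 ^ k = 1)
    (h : y ∉ centralizer (Q : Set G)) :
    ∃ lam : G → F, wsp ρ Q lam ≠ ⊥ ∧ (y ∈ wstab Q lam → Φ ρ Q lam y ≠ 1) := by
  by_contra hc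
  push Not at hc
  refine h (mem_centralizer_of_forall_wact (ρ := ρ) (card_ne_zero hq hQ)
    (fun g _ hg => hρ (hg.trans (map_one ρ).symm)) hy ?_ fun lam hl => ?_)
  · exact Nat.Coprime.coprime_dvd_left (orderOf_dvd_of_pow_eq_one hk)
      (Nat.Coprime.pow_left _ (cop_of_ne hq hQ))
  · obtain ⟨h1, h2⟩ := hc lam hl
    exact ⟨h1, (Φ_eq_wact (card_ne_zero hq hQ) h1).symm.trans h2⟩

namespace St

variable (h : St ρ e q B A P Q)
include h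

theorem wN_of_wstab {x : G} (hx : x ∈ wstab Q lam) : x ∈ wN ρ Q lam :=
  wstab_le_wN (card_ne_zero h.hq h.hQ.pgrp) hx

theorem alt (hl : wsp ρ Q lam ≠ ⊥) {z : G} (hz : z ∈ P ⊔ B) {l : ℕ} (hzl : z ^ 2 ^ l = 1) :
    ∃ j k, j + k = e ∧ z ^ 2 ^ j ∈ wstab Q lam ∧
      (Φ ρ Q lam (z ^ 2 ^ e) = 1 ∨ Special (Φ ρ Q lam (z ^ 2 ^ j)) (2 ^ (k + 1))) := by
  have hF := card_ne_zero (F := F) h.hq h.hQ.pgrp
  have h0 : 2 ^ (e + 1) ≠ 0 := by positivity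
  obtain ⟨j, k, hjk, hb, h1⟩ := exists_wact_special (ρ := ρ) hF hl (cop_of_ne h.hq h.hQ.pgrp)
    (h.hQ.hBP hz) (n := e) (by rw [(h.h6 z l hzl).1]; exact one_mem _) (geom_poly_ne_zero h0)
    (by rw [aeval_geom_poly, (h.h6 z l hzl).2]) (natDegree_geom_poly_lt h0)
  refine ⟨j, k, hjk, hb, ?_⟩
  rw [← Φ_eq_wact hF hb] at h1
  rcases h1 with h1 | h1
  · left
    rwa [← hjk, pow_add, pow_mul, Φ_pow (h.wN_of_wstab hb)]
  · exact Or.inr h1.1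

theorem pow_mem (hl : wsp ρ Q lam ≠ ⊥) {z : G} (hz : z ∈ P ⊔ B) {l : ℕ} (hzl : z ^ 2 ^ l = 1) :
    z ^ 2 ^ e ∈ wstab Q lam := by
  obtain ⟨j, k, hjk, hb, -⟩ := h.alt hl hz hzl
  rw [← hjk, pow_add, pow_mul]
  exact Subgroup.pow_mem _ hb _

theorem loc1 (hl : wsp ρ Q lam ≠ ⊥) (hc : ⁅P, P⁆ ≤ centralizer (Q : Set G)) {x u : G}
    (hx : x ∈ P ⊔ B) {l : ℕ} (hxl : x ^ 2 ^ l = 1) (hu : u ∈ P)
    (hne : Φ ρ Q lam (x ^ 2 ^ e) ≠ 1) : Φ ρ Q lam ((u * x) ^ 2 ^ e) = Φ ρ Q lam (x ^ 2 ^ e) := by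
  have hF := card_ne_zero (F := F) h.hq h.hQ.pgrp
  have hPN := le_wN_of_minAct h.hQ ρ lam
  obtain ⟨j, k, hjk, hb, h1 | h1⟩ := h.alt hl hx hxl
  · exact absurd h1 hne
  have hbN := h.wN_of_wstab hb
  have hE : ∀ t ∈ im ρ Q lam P, t * t = 1 := fun t ht => by
    obtain ⟨g, hg, hg', rfl⟩ := mem_im ht
    rw [← Φ_mul hg' hg', ← sq]
    exact Φ_eq_one_of_cent hF (hc (h.hP.pow_mem hg))
  obtain ⟨u₁, hu₁, he⟩ := exists_mul_pow hu (sup_le_normalizer h.hP hx) (2 ^ j)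
  have ht := Φ_mem_im hu₁ (hPN hu₁)
  have hcomm := cent_of_special (f := wF ρ Q lam) (cop_wS h.hq h.hQ.pgrp)
    (isPGroup_im (isPGroup_sup_zpowers h.hP hx hxl)) (im_le_aut _)
    (Φ_mem_im (mem_sup_right (Subgroup.pow_mem _ (mem_zpowers x) _)) hbN) h1 (im_mono le_sup_left)
    (Φ_mem_normalizer_im (Subgroup.pow_mem _ (sup_le_normalizer h.hP hx) _) hbN) hE ht
  obtain ⟨k, rfl⟩ := Nat.exists_eq_add_of_le' (one_le_of_special h1)
  rw [← hjk, pow_add, pow_mul, pow_mul, he, Φ_pow (mul_mem (hPN hu₁) hbN), Φ_pow hbN,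
    Φ_mul (hPN hu₁) hbN, hcomm.mul_pow, pow_succ' 2 k, pow_mul (Φ ρ Q lam u₁), sq, hE _ ht,
    one_pow, one_mul]

theorem loc2 (hl : wsp ρ Q lam ≠ ⊥) {x u w s : G} (hx : x ∈ P ⊔ B) {l : ℕ} (hxl : x ^ 2 ^ l = 1)
    (hu : u ∈ P) (hw : w ∈ P) (hs : s ∈ P)
    (hne : ¬ Commute (Φ ρ Q lam (x ^ 2 ^ e)) (Φ ρ Q lam w)) :
    Commute (Φ ρ Q lam ((u * x) ^ 2 ^ e) * (Φ ρ Q lam (x ^ 2 ^ e))⁻¹) (Φ ρ Q lam s) := by
  have hPN := le_wN_of_minAct h.hQ ρ lam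
  obtain ⟨j, k, hjk, hb, h1 | h1⟩ := h.alt hl hx hxl
  · exact absurd (h1 ▸ Commute.one_left _) hne
  have hbN := h.wN_of_wstab hb
  have hPP := h.hP.commutator_lt.le
  have hxP := Subgroup.pow_mem _ (sup_le_normalizer h.hP hx) (2 ^ j)
  rw [← hjk, pow_add, pow_mul, Φ_pow hbN] at hne
  obtain ⟨rfl, h2⟩ := class_two_special (f := wF ρ Q lam) (cop_wS h.hq h.hQ.pgrp)
    (isPGroup_im (isPGroup_sup_zpowers h.hP hx hxl)) (im_le_aut _)
    (Φ_mem_im (mem_sup_right (Subgroup.pow_mem _ (mem_zpowers x) _)) hbN) h1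
    (E := im ρ Q lam P) (Z := im ρ Q lam ⁅P, P⁆) (im_mono le_sup_left) (im_mono hPP)
    (Φ_mem_normalizer_im hxP hbN)
    (Φ_mem_normalizer_im (H2.le_normalizer_commutator le_rfl le_rfl hxP) hbN)
    (fun t ht => by
      obtain ⟨g, hg, hg', rfl⟩ := mem_im ht
      rw [← Φ_mul hg' hg', ← sq, pow_eq_one_of_mem_commutator h.hP hg, Φ_one])
    (fun z hz t ht => by
      obtain ⟨g, hg, hg', rfl⟩ := mem_im hz
      obtain ⟨a, ha, ha', rfl⟩ := mem_im ht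
      rw [Commute, SemiconjBy, ← Φ_mul hg' ha', ← Φ_mul ha' hg', h.hP.commutator_le_center hg a ha])
    (fun t ht => by
      obtain ⟨g, hg, hg', rfl⟩ := mem_im ht
      rw [← Φ_mul hg' hg', ← sq]
      exact Φ_mem_im (h.hP.pow_mem hg) (Subgroup.pow_mem _ hg' _))
    (Φ_mem_im hw (hPN hw)) hne
  obtain ⟨u₁, hu₁, he⟩ := exists_mul_pow hu (sup_le_normalizer h.hP hx) (2 ^ j)
  have hN := mul_mem (hPN hu₁) hbN
  have h3 : Φ ρ Q lam ((u * x) ^ 2 ^ e) = (Φ ρ Q lam u₁ * Φ ρ Q lam (x ^ 2 ^ j)) ^ 2 := by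
    rw [← hjk, pow_add, pow_mul, he, Φ_pow hN, Φ_mul (hPN hu₁) hbN, pow_one]
  rw [h3, ← hjk, pow_add, pow_mul, Φ_pow hbN, pow_one]
  refine h2 _ (Φ_mem_im hu₁ (hPN hu₁)) ?_ _ (Φ_mem_im hs (hPN hs))
  obtain ⟨l', hl'⟩ := exists_mul_pow_eq_one h.hP hx hxl hu
  obtain ⟨j', k', hjk', -, h4 | h4⟩ := h.alt hl (mul_mem (mem_sup_left hu) hx) hl'
  · exact Or.inl (h3 ▸ h4)
  · obtain rfl := eq_one_of_two_special hqp.out (isPGroup_wS h.hQ.pgrp) h1 h4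
    obtain rfl : j' = j := by omega
    rw [he, Φ_mul (hPN hu₁) hbN] at h4
    exact Or.inr h4

theorem star' (hρ : Function.Injective ρ) {x u : G} (hx : x ∈ P ⊔ B) {l : ℕ}
    (hxl : x ^ 2 ^ l = 1) (hu : u ∈ P) : (u * x) ^ 2 ^ e * (x ^ 2 ^ e)⁻¹ ∈ ⁅P, P⁆ := by
  by_contra hv
  obtain ⟨v, hvP, he⟩ := exists_mul_pow hu (sup_le_normalizer h.hP hx) (2 ^ e)
  have hv' : (u * x) ^ 2 ^ e * (x ^ 2 ^ e)⁻¹ = v := by rw [he, mul_inv_cancel_right]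
  obtain ⟨l', hl'⟩ := exists_mul_pow_eq_one h.hP hx hxl hu
  have hux : u * x ∈ P ⊔ B := mul_mem (mem_sup_left hu) hx
  have hΦ : ∀ lam : G → F, wsp ρ Q lam ≠ ⊥ → v ∈ wstab Q lam ∧
      Φ ρ Q lam v = Φ ρ Q lam ((u * x) ^ 2 ^ e) * (Φ ρ Q lam (x ^ 2 ^ e))⁻¹ := fun lam hl => by
    have h1 := h.pow_mem hl hux hl'
    have h2 := h.pow_mem hl hx hxl
    rw [← hv', Φ_mul (h.wN_of_wstab h1) (inv_mem (h.wN_of_wstab h2)), Φ_inv (h.wN_of_wstab h2)]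
    exact ⟨mul_mem h1 (inv_mem h2), rfl⟩
  rw [hv'] at hv
  by_cases hc : ⁅P, P⁆ ≤ centralizer (Q : Set G)
  · obtain ⟨m, hm⟩ := H68.isPGroup_iff_forall.1 h.hP.pgrp v hvP
    obtain ⟨lam, hl, h1⟩ := exists_Φ_ne_one h.hq h.hQ.pgrp hρ (h.hQ.hAP hvP) hm
      fun h' => hv (inf_cent_le h.hP h.hQ le_sup_right ⟨hvP, h'⟩)
    obtain ⟨h2, h3⟩ := hΦ lam hl
    refine h1 h2 ?_
    rw [h3, mul_inv_eq_one]
    by_cases h4 : Φ ρ Q lam (x ^ 2 ^ e) = 1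
    · by_contra h5
      have := h.loc1 hl hc hux hl' (inv_mem hu) (h4 ▸ h5)
      rw [inv_mul_cancel_left] at this
      exact h5 this.symm
    · exact h.loc1 hl hc hx hxl hu h4
  · have h1 : ∃ w ∈ P, ⁅v, w⁆ ∉ centralizer (Q : Set G) := by
      by_contra h'
      push Not at h'
      exact hv (inf_rel_le h.hP h.hQ le_sup_right hc
        ⟨hvP, H2.le_normalizer_centralizer h.hQ.hAP hvP, h'⟩)
    obtain ⟨w, hw, h1⟩ := h1
    have hvw : ⁅v, w⁆ ∈ P := h.hP.commutator_lt.le (commutator_mem_commutator hvP hw)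
    obtain ⟨m, hm⟩ := H68.isPGroup_iff_forall.1 h.hP.pgrp _ hvw
    obtain ⟨lam, hl, h2⟩ := exists_Φ_ne_one h.hq h.hQ.pgrp hρ (h.hQ.hAP hvw) hm h1
    obtain ⟨h3, h4⟩ := hΦ lam hl
    have hPN := le_wN_of_minAct h.hQ ρ lam
    have hconj : ∀ z ∈ P ⊔ B, ∀ l, z ^ 2 ^ l = 1 → w * z ^ 2 ^ e * w⁻¹ ∈ wstab Q lam :=
      fun z hz l hzl => by
        rw [← conj_pow]
        exact h.pow_mem hl (mul_mem (mul_mem (mem_sup_left hw) hz) (inv_mem (mem_sup_left hw)))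
          (l := l) (by rw [conj_pow, hzl, mul_one, mul_inv_cancel])
    refine h2 ?_ ?_
    · have : ⁅v, w⁆ = v * (w * x ^ 2 ^ e * w⁻¹) * (w * (u * x) ^ 2 ^ e * w⁻¹)⁻¹ := by
        rw [he, commutatorElement_def]; group
      rw [this]
      exact mul_mem (mul_mem h3 (hconj x hx l hxl)) (inv_mem (hconj _ hux l' hl'))
    · rw [commutatorElement_def, Φ_mul (hPN (mul_mem (mul_mem hvP hw) (inv_mem hvP)))
        (hPN (inv_mem hw)), Φ_mul (hPN (mul_mem hvP hw)) (hPN (inv_mem hvP)),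
        Φ_mul (hPN hvP) (hPN hw), Φ_inv (hPN hvP), Φ_inv (hPN hw), ← commutatorElement_def,
        commutatorElement_eq_one_iff_commute, h4]
      by_cases h5 : Commute (Φ ρ Q lam (x ^ 2 ^ e)) (Φ ρ Q lam w)
      · by_contra h6
        have := h.loc2 hl hux hl' (inv_mem hu) hw hw fun h7 => h6 (h7.mul_left h5.inv_left)
        rw [inv_mul_cancel_left] at this
        exact h6 (by simpa using this.inv_left)
      · exact h.loc2 hl hx hxl hu hw hw h5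

end St

omit [Fintype Q] [ClassTwo Q] in
theorem St.star (h : St ρ e q B A P Q) (hρ : Function.Injective ρ) {x u : G} (hx : x ∈ P ⊔ B)
    {l : ℕ} (hxl : x ^ 2 ^ l = 1) (hu : u ∈ P) : (u * x) ^ 2 ^ e * (x ^ 2 ^ e)⁻¹ ∈ ⁅P, P⁆ := by
  letI := Fintype.ofFinite Q
  haveI := classTwo_of_minAct h.hQ
  exact h.star' hρ hx hxl hu

end H85.TL
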